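import Cfsg.Agent.H879.ExtSymp

/-!
# S3499, class 3 of the symplectic groups: the conjugates of the extension field by transvections

`V` a vector space over `K`, `φ` an alternating nondegenerate `K`-form, `ℓ : K → F` linear, `f = ℓ ∘ φ`, and
`T_v : x ↦ x + f(x, v) v`. Then `T_v κ T_v⁻¹ = κ + E_v(κ)` with `E_v(κ)(x) = f(x, κv) v − f(x, v) κv`.
-/

set_option autoImplicit false
set_option linter.unusedSectionVars false

namespace Cfsg.Agent.H821.EP

open Module Cfsg.Agent.H879 Cfsg.Agent.H879.ExtField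

section E

variable {F K V : Type*} [Field F] [Field K] [Algebra F K] [AddCommGroup V]
  [Module F V] [Module K V] [IsScalarTower F K V]

/-- The difference of `T_v κ T_v⁻¹` and `κ`. -/
def E (φ : V →ₗ[K] V →ₗ[K] K) (ℓ : K →ₗ[F] F) (v : V) (κ : K) (x : V) : V :=
  ℓ (φ x (κ • v)) • v - ℓ (φ x v) • (κ • v)

variable {φ : V →ₗ[K] V →ₗ[K] K} {ℓ : K →ₗ[F] F}

theorem E_self (halt : ∀ x, φ x x = 0) (v : V) (κ a : K) : E φ ℓ v κ (a • v) = 0 := by
  unfold E
  simp only [map_smul, LinearMap.smul_apply, halt, smul_zero, map_zero, zero_smul, sub_zero]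

theorem T_conj (halt : ∀ x, φ x x = 0) (v : V) (κ : K) (x : V) :
    κ • (x - ℓ (φ x v) • v) + ℓ (φ (κ • (x - ℓ (φ x v) • v)) v) • v = κ • x + E φ ℓ v κ x := by
  have h1 : φ (ℓ (φ x v) • v) v = 0 := by
    rw [← algebraMap_smul K (ℓ (φ x v)) v, φ.map_smul, LinearMap.smul_apply, halt, smul_zero]
  have h2 : φ (κ • (x - ℓ (φ x v) • v)) v = φ x (κ • v) := by
    rw [φ.map_smul, LinearMap.smul_apply, φ.map_sub, LinearMap.sub_apply, h1, sub_zero, (φ x).map_smul]
  rw [h2, smul_sub, smul_comm κ (ℓ (φ x v)) v]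
  unfold E
  abel

theorem eq_of_E (halt : ∀ x, φ x x = 0) {v w : V} (hv : v ≠ 0) {κ κ' : K}
    (h : ∀ y, κ • y + E φ ℓ w κ y = κ' • y + E φ ℓ v κ' y) :
    κ' = κ ∧ ∀ y, E φ ℓ w κ y = E φ ℓ v κ y := by
  have h1 : κ' = κ := by
    by_contra hne
    have hne' : κ' - κ ≠ 0 := sub_ne_zero.2 hne
    have h2 := h v
    have h3 : E φ ℓ v κ' v = 0 := by
      have := E_self (ℓ := ℓ) halt v κ' 1
      rwa [one_smul] at this
    rw [h3, add_zero] at h2
    have h4 : E φ ℓ w κ v = (κ' - κ) • v := by rw [sub_smul, ← h2]; abel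
    have h5 : v = ((κ' - κ)⁻¹ * (algebraMap F K (ℓ (φ v (κ • w))) - algebraMap F K (ℓ (φ v w)) * κ)) • w := by
      rw [mul_smul, sub_smul, mul_smul, algebraMap_smul, algebraMap_smul]
      have h6 : ℓ (φ v (κ • w)) • w - ℓ (φ v w) • (κ • w) = (κ' - κ) • v := h4
      rw [h6, smul_smul, inv_mul_cancel₀ hne', one_smul]
    have h7 : E φ ℓ w κ v = 0 := by
      rw [h5]
      exact E_self halt w κ _
    rw [h7] at h4
    exact hv ((smul_eq_zero.1 h4.symm).resolve_left hne')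
  subst h1
  exact ⟨rfl, fun y => add_left_cancel (h y)⟩

theorem E_map {g : V ≃ₗ[F] V} {σ : K ≃ₐ[F] K} (hg : ∀ (κ : K) x, g (κ • x) = σ κ • g x)
    (hf : ∀ x y, ℓ (φ (g x) (g y)) = ℓ (φ x y)) (v : V) (κ : K) (x : V) :
    g (E φ ℓ v κ x) = E φ ℓ (g v) (σ κ) (g x) := by
  unfold E
  rw [map_sub, g.map_smul, g.map_smul, hg, ← hg, hf, hf]

theorem E_conj {h m : V ≃ₗ[F] V} {σ : K ≃ₐ[F] K} (hh : ∀ (κ : K) x, h (κ • x) = κ • h x)
    (hhf : ∀ x y, ℓ (φ (h x) (h y)) = ℓ (φ x y)) (hm : ∀ (κ : K) x, m (κ • x) = σ κ • m x)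
    (hmf : ∀ x y, ℓ (φ (m x) (m y)) = ℓ (φ x y)) {κ₀ : K} (h0 : κ₀ ≠ 0) {c : F} (hc : c ≠ 0)
    (hsc : ∀ (u : V) (κ : K) x, E φ ℓ (κ₀ • u) κ x = c • E φ ℓ u κ x) {v : V} (hv : h v = κ₀ • v)
    (hE : ∀ (κ : K) x, E φ ℓ (m v) κ x = E φ ℓ v κ x) (κ : K) (x : V) :
    E φ ℓ (h (m (h⁻¹ v))) κ x = E φ ℓ v κ x := by
  have e1 : h⁻¹ v = κ₀⁻¹ • v := by
    have h1 : h (κ₀⁻¹ • v) = v := by rw [hh, hv, smul_smul, inv_mul_cancel₀ h0, one_smul]
    rw [← inv_apply_apply h (κ₀⁻¹ • v), h1]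
  have e2 : v = κ₀ • h⁻¹ v := by rw [e1, smul_smul, mul_inv_cancel₀ h0, one_smul]
  set u := h⁻¹ v with hu
  have h1 : ∀ (κ : K) x, E φ ℓ v κ x = c • E φ ℓ u κ x := by
    intro κ x
    have := hsc u κ x
    rwa [← e2] at this
  have h2 : ∀ (κ : K) x, E φ ℓ (m v) κ x = c • E φ ℓ (m u) κ x := by
    intro κ x
    have e3 := E_map hm hmf v (σ.symm κ) (m⁻¹ x)
    have e4 := E_map hm hmf u (σ.symm κ) (m⁻¹ x)
    rw [AlgEquiv.apply_symm_apply, apply_inv_apply] at e3 e4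
    rw [← e3, ← e4, h1, map_smul]
  have hh' : ∀ (κ : K) x, h (κ • x) = (AlgEquiv.refl : K ≃ₐ[F] K) κ • h x := hh
  have h3 : ∀ (κ : K) x, E φ ℓ (h v) κ x = c • E φ ℓ (h (m u)) κ x := by
    intro κ x
    have e3 := E_map hh' hhf v κ (h⁻¹ x)
    have e4 := E_map hh' hhf (m u) κ (h⁻¹ x)
    rw [apply_inv_apply] at e3 e4
    have e5 : (AlgEquiv.refl : K ≃ₐ[F] K) κ = κ := rfl
    rw [e5] at e3 e4
    rw [← e3, ← e4, ← hE κ, h2, map_smul]
  have h4 := h3 κ x
  rw [hv, hsc] at h4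
  exact (smul_right_injective V hc h4).symm

theorem exists_E_ne (hnd : ∀ x, x ≠ 0 → ∃ y, φ y x ≠ 0) (hl : ℓ ≠ 0) {v : V} (hv : v ≠ 0) {κ : K}
    (hκ : ∀ c : F, algebraMap F K c ≠ κ) : ∃ x, E φ ℓ v κ x ≠ 0 := by
  obtain ⟨y, hy⟩ := hnd v hv
  obtain ⟨k, hk⟩ : ∃ k, ℓ k ≠ 0 := by
    by_contra hc
    push Not at hc
    exact hl (LinearMap.ext hc)
  refine ⟨(k * (φ y v)⁻¹) • y, fun h0 => ?_⟩
  have h1 : φ ((k * (φ y v)⁻¹) • y) v = k := by
    rw [φ.map_smul, LinearMap.smul_apply, smul_eq_mul, mul_assoc, inv_mul_cancel₀ hy, mul_one]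
  unfold E at h0
  rw [h1, sub_eq_zero] at h0
  apply hκ ((ℓ k)⁻¹ * ℓ (φ ((k * (φ y v)⁻¹) • y) (κ • v)))
  have h2 : κ • v = (algebraMap F K ((ℓ k)⁻¹ * ℓ (φ ((k * (φ y v)⁻¹) • y) (κ • v)))) • v := by
    rw [algebraMap_smul, mul_smul, h0, smul_smul, inv_mul_cancel₀ hk, one_smul]
  have h3 : (κ - algebraMap F K ((ℓ k)⁻¹ * ℓ (φ ((k * (φ y v)⁻¹) • y) (κ • v)))) • v = 0 := by
    rw [sub_smul, ← h2, sub_self]
  exact (sub_eq_zero.1 ((smul_eq_zero.1 h3).resolve_right hv)).symm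

/-- `E_{cv} = c² E_v` for `c ∈ F` -/
theorem E_smul (c : F) (v : V) (κ : K) (x : V) : E φ ℓ (algebraMap F K c • v) κ x = (c * c) • E φ ℓ v κ x := by
  unfold E
  have e1 : φ x (κ • algebraMap F K c • v) = c • φ x (κ • v) := by
    rw [smul_comm κ, (φ x).map_smul, algebraMap_smul]
  have e2 : φ x (algebraMap F K c • v) = c • φ x v := by rw [(φ x).map_smul, algebraMap_smul]
  rw [e1, e2, ℓ.map_smul, ℓ.map_smul, algebraMap_smul, smul_comm κ c v, smul_eq_mul, smul_eq_mul]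
  generalize ℓ (φ x (κ • v)) = s
  generalize ℓ (φ x v) = t
  generalize κ • v = w
  module

/-- a functional with values `0, 1` at `1, κ` -/
theorem exists_dual (hl : ℓ ≠ 0) {κ : K} (hκ : ∀ c : F, algebraMap F K c ≠ κ) : ∃ a : K, ℓ a = 0 ∧ ℓ (a * κ) = 1 := by
  obtain ⟨a₀, ha₀⟩ : ∃ k, ℓ k ≠ 0 := by
    by_contra hc
    push Not at hc
    exact hl (LinearMap.ext hc)
  obtain ⟨a, ha, ha'⟩ : ∃ a : K, ℓ a = 0 ∧ ℓ (a * κ) ≠ 0 := by
    by_contra hcon
    push Not at hcon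
    apply hκ ((ℓ a₀)⁻¹ * ℓ (a₀ * κ))
    apply ell_ext hl
    intro k
    rw [smul_alg]
    have h1 := hcon (k - ((ℓ a₀)⁻¹ * ℓ k) • a₀) (by
      rw [map_sub, map_smul, smul_eq_mul, mul_comm (ℓ a₀)⁻¹, mul_assoc, inv_mul_cancel₀ ha₀, mul_one, sub_self])
    rw [sub_mul, smul_mul_assoc, map_sub, map_smul, smul_eq_mul, sub_eq_zero] at h1
    rw [h1]
    ring
  refine ⟨(ℓ (a * κ))⁻¹ • a, by rw [map_smul, ha, smul_zero], ?_⟩
  rw [smul_mul_assoc, map_smul, smul_eq_mul, inv_mul_cancel₀ ha']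

/-- If `E_w = E_v` and `dim_F K ≥ 3`, then `w = ± v`. -/
theorem eq_or_neg (hnd : ∀ x, x ≠ 0 → ∃ y, φ y x ≠ 0) (hl : ℓ ≠ 0)
    (hdim : 3 ≤ finrank F K) {v w : V} (hv : v ≠ 0) (hw : w ≠ 0) (hE : ∀ (κ : K) x, E φ ℓ w κ x = E φ ℓ v κ x) :
    w = v ∨ w = -v := by
  have hex : ∀ s : Finset K, s.card ≤ 2 → ∃ κ : K, κ ∉ Submodule.span F (s : Set K) := by
    intro s hs
    by_contra hcon
    push Not at hcon
    have h1 : Submodule.span F (s : Set K) = ⊤ := eq_top_iff.2 fun z _ => hcon z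
    have h2 : finrank F (Submodule.span F (s : Set K)) ≤ s.card := finrank_span_finset_le_card (R := F) s
    rw [h1, finrank_top] at h2
    omega
  classical
  have key : ∀ κ : K, (∀ c : F, algebraMap F K c ≠ κ) → ∃ α β : F, w = (algebraMap F K α + β • κ) • v := by
    intro κ hκ
    obtain ⟨a, ha, ha'⟩ := exists_dual hl hκ
    obtain ⟨y, hy⟩ := hnd w hw
    have h1 : ∀ b : K, φ ((a * (φ y w)⁻¹) • y) (b • w) = a * b := by
      intro b
      rw [φ.map_smul, LinearMap.smul_apply, (φ y).map_smul, smul_eq_mul, smul_eq_mul]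
      field_simp
    have h2 := hE κ ((a * (φ y w)⁻¹) • y)
    unfold E at h2
    rw [h1, ha', one_smul] at h2
    have h3 := h1 1
    rw [one_smul, mul_one] at h3
    rw [h3, ha, zero_smul, sub_zero] at h2
    refine ⟨ℓ (φ ((a * (φ y w)⁻¹) • y) (κ • v)), -ℓ (φ ((a * (φ y w)⁻¹) • y) v), h2.trans ?_⟩
    rw [add_smul, algebraMap_smul, neg_smul, neg_smul, smul_assoc, sub_eq_add_neg]
  -- `w = l v`
  obtain ⟨κ, hκ⟩ := hex {1} (by simp)
  have hκ' : ∀ c : F, algebraMap F K c ≠ κ := by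
    rintro c rfl
    apply hκ
    rw [Algebra.algebraMap_eq_smul_one]
    exact Submodule.smul_mem _ _ (Submodule.subset_span (by simp))
  obtain ⟨α, β, h1⟩ := key κ hκ'
  obtain ⟨κ₂, hκ₂⟩ := hex {1, κ} (Finset.card_le_two)
  have hκ₂' : ∀ c : F, algebraMap F K c ≠ κ₂ := by
    rintro c rfl
    apply hκ₂
    rw [Algebra.algebraMap_eq_smul_one]
    exact Submodule.smul_mem _ _ (Submodule.subset_span (by simp))
  obtain ⟨α₂, β₂, h2⟩ := key κ₂ hκ₂'
  have h3 : algebraMap F K α + β • κ = algebraMap F K α₂ + β₂ • κ₂ := by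
    have : (algebraMap F K α + β • κ - (algebraMap F K α₂ + β₂ • κ₂)) • v = 0 := by
      rw [sub_smul, ← h1, ← h2, sub_self]
    exact sub_eq_zero.1 ((smul_eq_zero.1 this).resolve_right hv)
  have hβ₂ : β₂ = 0 := by
    by_contra hne
    apply hκ₂
    have h4 : κ₂ = (β₂⁻¹ * (α - α₂)) • (1 : K) + (β₂⁻¹ * β) • κ := by
      have h5 : β₂ • κ₂ = (α - α₂) • (1 : K) + β • κ := by
        rw [sub_smul, ← Algebra.algebraMap_eq_smul_one, ← Algebra.algebraMap_eq_smul_one]
        linear_combination -h3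
      rw [mul_smul, mul_smul, ← smul_add, ← h5, smul_smul, inv_mul_cancel₀ hne, one_smul]
    rw [h4]
    exact Submodule.add_mem _ (Submodule.smul_mem _ _ (Submodule.subset_span (by simp)))
      (Submodule.smul_mem _ _ (Submodule.subset_span (by simp)))
  rw [hβ₂, zero_smul, add_zero] at h2
  -- `c² = 1`
  obtain ⟨x, hx⟩ := exists_E_ne hnd hl hv hκ'
  have h4 := hE κ x
  rw [h2, E_smul] at h4
  have h5 : (α₂ * α₂ - 1) • E φ ℓ v κ x = 0 := by rw [sub_smul, h4, one_smul, sub_self]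
  have h6 : α₂ * α₂ - 1 = 0 := (smul_eq_zero.1 h5).resolve_right hx
  have h7 : (α₂ - 1) * (α₂ + 1) = 0 := by linear_combination h6
  rcases mul_eq_zero.1 h7 with h8 | h8
  · left
    rw [h2, sub_eq_zero.1 h8, map_one, one_smul]
  · right
    rw [h2, eq_neg_of_add_eq_zero_left h8, map_neg, map_one, neg_smul, one_smul]

end E

section P

variable {F K V : Type*} [Field F] [Field K] [Algebra F K] [AddCommGroup V]
  [Module F V] [Module K V] [IsScalarTower F K V]

/-- The `K`-linear isometries of `φ`. -/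
def PK (F : Type*) {K V : Type*} [Field F] [Field K] [Algebra F K] [AddCommGroup V]
    [Module F V] [Module K V] [IsScalarTower F K V] (φ : V →ₗ[K] V →ₗ[K] K) : Subgroup (V ≃ₗ[F] V) where
  carrier := {g | (∀ (κ : K) x, g (κ • x) = κ • g x) ∧ ∀ x y, φ (g x) (g y) = φ x y}
  mul_mem' := by
    rintro a b ⟨ha, ha'⟩ ⟨hb, hb'⟩
    refine ⟨fun κ x => ?_, fun x y => ?_⟩
    · rw [LinearEquiv.mul_apply, LinearEquiv.mul_apply, hb, ha]
    · rw [LinearEquiv.mul_apply, LinearEquiv.mul_apply, ha', hb']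
  one_mem' := ⟨fun _ _ => rfl, fun _ _ => rfl⟩
  inv_mem' := by
    rintro a ⟨ha, ha'⟩
    refine ⟨fun κ x => ?_, fun x y => ?_⟩
    · apply a.injective
      rw [apply_inv_apply, ha, apply_inv_apply]
    · rw [← ha', apply_inv_apply, apply_inv_apply]

variable {φ : V →ₗ[K] V →ₗ[K] K} {ℓ : K →ₗ[F] F}

theorem mem_PK {g : V ≃ₗ[F] V} :
    g ∈ PK F φ ↔ (∀ (κ : K) x, g (κ • x) = κ • g x) ∧ ∀ x y, φ (g x) (g y) = φ x y := Iff.rfl

theorem skew_of (halt : ∀ x, φ x x = 0) (x y : V) : φ x y = - φ y x := by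
  have := halt (x + y)
  simp only [map_add, LinearMap.add_apply, halt, zero_add, add_zero] at this
  exact eq_neg_of_add_eq_zero_right this

/-- The transvection over `K` as a linear automorphism over `F`. -/
def tvE (F : Type*) {K V : Type*} [Field F] [Field K] [Algebra F K] [AddCommGroup V]
    [Module F V] [Module K V] [IsScalarTower F K V] {φ : V →ₗ[K] V →ₗ[K] K} (halt : ∀ x, φ x x = 0)
    (v : V) (l : K) : V ≃ₗ[F] V where
  toFun := kt φ v l
  invFun := kt φ v (-l)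
  map_add' := fun x y => by
    unfold kt
    simp only [map_add, LinearMap.add_apply]
    module
  map_smul' := fun c x => by
    unfold kt
    rw [RingHom.id_apply, ← algebraMap_smul K c x, φ.map_smul, LinearMap.smul_apply,
      ← algebraMap_smul K c (x + _)]
    module
  left_inv := fun x => by
    unfold kt
    simp only [map_add, LinearMap.add_apply, map_smul, LinearMap.smul_apply, smul_eq_mul, halt]
    module
  right_inv := fun x => by
    unfold kt
    simp only [map_add, LinearMap.add_apply, map_smul, LinearMap.smul_apply, smul_eq_mul, halt]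
    module

variable (halt : ∀ x, φ x x = 0)
include halt

theorem tvE_apply (v : V) (l : K) (x : V) : tvE F halt v l x = x + (l * φ x v) • v := rfl

theorem tvE_mem (v : V) (l : K) : tvE F halt v l ∈ PK F φ := by
  refine ⟨fun κ x => ?_, fun x y => ?_⟩
  · rw [tvE_apply, tvE_apply, φ.map_smul, LinearMap.smul_apply, smul_eq_mul]
    module
  · rw [tvE_apply, tvE_apply]
    simp only [map_add, LinearMap.add_apply, map_smul, LinearMap.smul_apply, smul_eq_mul, halt]
    rw [skew_of halt v y]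
    ring

theorem tvE_mul (v : V) (a b : K) : tvE F halt v a * tvE F halt v b = tvE F halt v (a + b) := by
  ext x
  rw [LinearEquiv.mul_apply, tvE_apply, tvE_apply, tvE_apply]
  simp only [map_add, LinearMap.add_apply, map_smul, LinearMap.smul_apply, smul_eq_mul, halt]
  module

theorem tvE_zero (v : V) : tvE F halt v 0 = 1 := by
  ext x
  rw [tvE_apply, zero_mul, zero_smul, add_zero]
  rfl

theorem tvE_inv (v : V) (a : K) : (tvE F halt v a)⁻¹ = tvE F halt v (-a) := by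
  rw [inv_eq_iff_mul_eq_one, tvE_mul, add_neg_cancel, tvE_zero]

theorem tvE_smul (v : V) (k a : K) : tvE F halt (k • v) a = tvE F halt v (k * k * a) := by
  ext x
  rw [tvE_apply, tvE_apply, (φ x).map_smul, smul_eq_mul]
  module

theorem tvE_conj {g : V ≃ₗ[F] V} {σ : K ≃ₐ[F] K} (hg : ∀ (κ : K) x, g (κ • x) = σ κ • g x)
    (hf : ∀ x y, φ (g x) (g y) = σ (φ x y)) (u : V) (a : K) :
    g * tvE F halt u a * g⁻¹ = tvE F halt (g u) (σ a) := by
  ext x
  rw [LinearEquiv.mul_apply, LinearEquiv.mul_apply, tvE_apply, tvE_apply, map_add, apply_inv_apply, hg, map_mul,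
    ← hf, apply_inv_apply]

theorem hypPK (hnd : ∀ x, x ≠ 0 → ∃ y, φ x y ≠ 0) (hl : ℓ ≠ 0) : Hyp φ ℓ (PK F φ) :=
  ⟨halt, hnd, hl, fun g hg x y => by rw [hg.2], fun v l => ⟨tvE F halt v l, tvE_mem halt v l, fun _ => rfl⟩⟩

/-- `d` fixes `v` and multiplies `u ∈ v^⊥` by `κ`. -/
theorem exists_d (hnd : ∀ x, x ≠ 0 → ∃ y, φ x y ≠ 0) (hl : ℓ ≠ 0) {u v : V} (huv : φ u v = 0)
    (hu : ∀ k : K, u ≠ k • v) {κ : K} (hκ : κ ≠ 0) : ∃ d ∈ PK F φ, d v = v ∧ d u = κ • u := by
  have h := hypPK (F := F) halt hnd hl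
  obtain ⟨w, hw, hwu⟩ := h.exists_sep hu
  have huw : φ u w ≠ 0 := by rw [skew_of halt, neg_ne_zero]; exact hwu
  have hvu : φ v u = 0 := by rw [skew_of halt, huv, neg_zero]
  have hvw : φ v w = 0 := by rw [skew_of halt, hw, neg_zero]
  obtain ⟨t, ht, h1, h2, -⟩ := h.move huw
  obtain ⟨t', ht', h1', h2', -⟩ := h.move (x := w) (y := κ • u) (by
    rw [(φ w).map_smul, smul_eq_mul]
    exact mul_ne_zero hκ hwu)
  refine ⟨t' * t, (PK F φ).mul_mem ht' ht, ?_, by rw [LinearEquiv.mul_apply, h1, h1']⟩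
  rw [LinearEquiv.mul_apply, h2 v (by rw [map_sub, hvw, hvu, sub_zero]), h2' v]
  rw [map_sub, (φ v).map_smul, hvu, hvw, smul_zero, sub_zero]

theorem exists_h (hnd : ∀ x, x ≠ 0 → ∃ y, φ x y ≠ 0) (hl : ℓ ≠ 0) {v : V} (hv : v ≠ 0) {κ : K} (hκ : κ ≠ 0) :
    ∃ h ∈ PK F φ, h v = κ • v := by
  obtain ⟨t, ht, h1, -⟩ := (hypPK (F := F) halt hnd hl).trans hv (smul_ne_zero hκ hv)
  exact ⟨t, ht, h1⟩

/-- An isometry fixing `v` and normalising the groups of transvections at the vectors of `v^⊥` up to scalars is a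
transvection. -/
theorem eq_tvE (hnd : ∀ x, x ≠ 0 → ∃ y, φ x y ≠ 0) (hl : ℓ ≠ 0) (h2 : (2 : K) ≠ 0) {v : V} (hv : v ≠ 0)
    {c : V ≃ₗ[F] V} (hc : c ∈ PK F φ) (hcv : c v = v)
    (hcu : ∀ u, φ u v = 0 → (∀ k : K, u ≠ k • v) → ∃ s : F, ∀ x, (c * tvE F halt u 1 * c⁻¹) x = s • tvE F halt u 1 x) :
    ∃ a, c = tvE F halt v a := by
  have h := hypPK (F := F) halt hnd hl
  have hc' : ∀ (κ : K) x, c (κ • x) = (AlgEquiv.refl : K ≃ₐ[F] K) κ • c x := hc.1
  have hc'' : ∀ x y, φ (c x) (c y) = (AlgEquiv.refl : K ≃ₐ[F] K) (φ x y) := hc.2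
  -- `c` is `1` on `v^⊥`
  have key1 : ∀ u, φ u v = 0 → (∀ k : K, u ≠ k • v) → c u = u ∨ c u = -u := by
    intro u hu hu'
    obtain ⟨s, hs⟩ := hcu u hu hu'
    rw [tvE_conj halt hc' hc''] at hs
    have e0 : (AlgEquiv.refl : K ≃ₐ[F] K) (1 : K) = 1 := rfl
    rw [e0] at hs
    have hu0 : u ≠ 0 := by
      rintro rfl
      exact hu' 0 (by rw [zero_smul])
    have hs1 : s = 1 := by
      have e1 := hs v
      have e2 : φ v u = 0 := by rw [skew_of halt, hu, neg_zero]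
      have e3 : φ v (c u) = 0 := by rw [← hcv, hc.2, e2]
      simp only [tvE_apply, e2, e3, mul_zero, zero_smul, add_zero] at e1
      have e4 : (s - 1) • v = 0 := by rw [sub_smul, ← e1, one_smul, sub_self]
      exact sub_eq_zero.1 ((smul_eq_zero.1 e4).resolve_right hv)
    have e1 : ∀ x, φ x (c u) • c u = φ x u • u := by
      intro x
      have := hs x
      rw [hs1, one_smul, tvE_apply, tvE_apply, one_mul, one_mul] at this
      exact add_left_cancel this
    obtain ⟨y, hy⟩ := h.ndeg' u hu0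
    have e2 : u = ((φ y u)⁻¹ * φ y (c u)) • c u := by
      rw [mul_smul, e1, smul_smul, inv_mul_cancel₀ hy, one_smul]
    set l : K := (φ y u)⁻¹ * φ y (c u) with hldef
    have hl0 : l ≠ 0 := by
      intro h0
      rw [h0, zero_smul] at e2
      exact hu0 e2
    have e3 : φ y u = l * φ y (c u) := by
      conv_lhs => rw [e2]
      rw [(φ y).map_smul, smul_eq_mul]
    have e4 : φ y (c u) ≠ 0 := by
      intro h0
      rw [h0, mul_zero] at e3
      exact hy e3
    have e5 : (l * l - 1) • c u = 0 := by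
      have e6 := e1 y
      rw [e3] at e6
      have e6' : (l * φ y (c u)) • u = (l * φ y (c u)) • (l • c u) := by rw [← e2]
      rw [e6', smul_smul] at e6
      have e7 : ((l * l - 1) * φ y (c u)) • c u = 0 := by
        have e8 : (l * l - 1) * φ y (c u) = l * φ y (c u) * l - φ y (c u) := by ring
        rw [e8, sub_smul, ← e6, sub_self]
      rw [mul_comm, mul_smul] at e7
      exact (smul_eq_zero.1 e7).resolve_left e4
    have hcu0 : c u ≠ 0 := fun h0 => hu0 (c.injective (by rw [h0, map_zero]))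
    have e6 : (l - 1) * (l + 1) = 0 := by
      have := (smul_eq_zero.1 e5).resolve_right hcu0
      linear_combination this
    rcases mul_eq_zero.1 e6 with e7 | e7
    · left
      rw [sub_eq_zero.1 e7, one_smul] at e2
      exact e2.symm
    · right
      rw [eq_neg_of_add_eq_zero_left e7, neg_smul, one_smul] at e2
      rw [← neg_eq_iff_eq_neg]
      exact e2.symm
  have h2v : ∀ x : V, (2 : K) • x = 0 → x = 0 := fun x hx => (smul_eq_zero.1 hx).resolve_left h2
  have key2 : ∀ u, φ u v = 0 → (∀ k : K, u ≠ k • v) → c u = u := by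
    intro u hu hu'
    rcases key1 u hu hu' with e1 | e1
    · exact e1
    exfalso
    have e2 := key1 (u + v) (by rw [map_add, LinearMap.add_apply, hu, halt, add_zero]) (by
      intro k hk
      apply hu' (k - 1)
      rw [sub_smul, one_smul, ← hk, add_sub_cancel_right])
    rw [map_add, hcv, e1] at e2
    rcases e2 with e2 | e2
    · have e3 : (2 : K) • u = 0 := by
        rw [two_smul]
        have : -u + v - (u + v) = 0 := sub_eq_zero.2 e2
        have e4 : u + u = -(-u + v - (u + v)) := by abel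
        rw [e4, this, neg_zero]
      have e4 := h2v u e3
      exact hu' 0 (by rw [e4, zero_smul])
    · have e3 : (2 : K) • v = 0 := by
        rw [two_smul]
        have : -u + v - (-(u + v)) = 0 := sub_eq_zero.2 e2
        have e4 : v + v = -u + v - (-(u + v)) := by abel
        rw [e4, this]
      exact hv (h2v v e3)
  have key3 : ∀ u, φ u v = 0 → c u = u := by
    intro u hu
    by_cases hu' : ∀ k : K, u ≠ k • v
    · exact key2 u hu hu'
    · push Not at hu'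
      obtain ⟨k, rfl⟩ := hu'
      rw [hc.1, hcv]
  -- `c x - x ∈ K v`
  have key4 : ∀ x, ∃ k : K, c x - x = k • v := by
    intro x
    by_contra hcon
    push Not at hcon
    obtain ⟨a, ha, ha'⟩ := h.exists_sep hcon
    apply ha'
    have e1 : φ a (c x) = φ a x := by
      conv_lhs => rw [← key3 a ha]
      rw [hc.2]
    rw [map_sub, e1, sub_self]
  obtain ⟨y, hy⟩ := h.ndeg' v hv
  set x₀ : V := (φ y v)⁻¹ • y with hx₀
  have h1 : φ x₀ v = 1 := by rw [hx₀, φ.map_smul, LinearMap.smul_apply, smul_eq_mul, inv_mul_cancel₀ hy]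
  obtain ⟨a, ha⟩ := key4 x₀
  refine ⟨a, ?_⟩
  ext x
  rw [tvE_apply]
  have e1 : c (x - φ x v • x₀) = x - φ x v • x₀ := by
    apply key3
    rw [φ.map_sub, LinearMap.sub_apply, φ.map_smul, LinearMap.smul_apply, h1, smul_eq_mul, mul_one, sub_self]
  rw [map_sub, hc.1] at e1
  have e2 : c x₀ = a • v + x₀ := by rw [← ha, sub_add_cancel]
  rw [e2, smul_add] at e1
  have e3 : c x = x - φ x v • x₀ + (φ x v • a • v + φ x v • x₀) := sub_eq_iff_eq_add.1 e1
  rw [e3, smul_smul (φ x v) a v, mul_comm (φ x v) a]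
  abel

end P

section Tr

variable {F K V : Type*} [Field F] [Field K] [Algebra F K] [AddCommGroup V]
  [Module F V] [Module K V] [IsScalarTower F K V] {φ : V →ₗ[K] V →ₗ[K] K}

/-- the form is semi-invariant under the semilinear isometries of `Tr ∘ φ` -/
theorem phi_semi (hl : Algebra.trace F K ≠ 0) {g : V ≃ₗ[F] V} {σ : K ≃ₐ[F] K}
    (hg : ∀ (κ : K) x, g (κ • x) = σ κ • g x)
    (hf : ∀ x y, Algebra.trace F K (φ (g x) (g y)) = Algebra.trace F K (φ x y)) (x y : V) :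
    φ (g x) (g y) = σ (φ x y) := by
  apply ell_ext hl
  intro k
  have e1 : k * φ (g x) (g y) = φ (g (σ.symm k • x)) (g y) := by
    rw [hg, AlgEquiv.apply_symm_apply, φ.map_smul, LinearMap.smul_apply, smul_eq_mul]
  rw [e1, hf, φ.map_smul, LinearMap.smul_apply, smul_eq_mul,
    ← Algebra.trace_eq_of_algEquiv σ (σ.symm k * φ x y), map_mul, AlgEquiv.apply_symm_apply]

/-- the fixed field of an automorphism of an extension of prime degree -/
theorem fix_F (hr : (finrank F K).Prime) {σ : K ≃ₐ[F] K} (hσ : ∃ κ, σ κ ≠ κ) {b : K} (hb : σ b = b) :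
    ∃ c : F, algebraMap F K c = b := by
  have hs : IsSimpleOrder (Subalgebra F K) := Subalgebra.isSimpleOrder_of_finrank_prime F K hr
  rcases hs.eq_bot_or_eq_top (AlgHom.equalizer (σ : K →ₐ[F] K) (AlgHom.id F K)) with h1 | h1
  · have h2 : b ∈ (⊥ : Subalgebra F K) := by
      rw [← h1]
      exact hb
    exact Algebra.mem_bot.1 h2
  · exfalso
    obtain ⟨κ, hκ⟩ := hσ
    apply hκ
    have h2 : κ ∈ AlgHom.equalizer (σ : K →ₐ[F] K) (AlgHom.id F K) := by
      rw [h1]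
      exact Algebra.mem_top
    exact h2

/-- the elements `σ l - l` are not all in `F` when `dim_F K ≥ 3` -/
theorem exists_not_fix (hr : (finrank F K).Prime) (h3 : 3 ≤ finrank F K) {σ : K ≃ₐ[F] K} (hσ : ∃ κ, σ κ ≠ κ) :
    ∃ l : K, ∀ c : F, algebraMap F K c ≠ σ l - l := by
  have : FiniteDimensional F K := FiniteDimensional.of_finrank_pos hr.pos
  by_contra hcon
  push Not at hcon
  let L : K →ₗ[F] K := σ.toLinearMap - LinearMap.id
  have hL : ∀ l, L l = σ l - l := fun _ => rfl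
  have h1 : LinearMap.range L ≤ Submodule.span F {(1 : K)} := by
    rintro _ ⟨l, rfl⟩
    obtain ⟨c, hc⟩ := hcon l
    rw [hL, ← hc, Algebra.algebraMap_eq_smul_one]
    exact Submodule.smul_mem _ _ (Submodule.mem_span_singleton_self _)
  have h2 : LinearMap.ker L ≤ Submodule.span F {(1 : K)} := by
    intro l hl
    rw [LinearMap.mem_ker, hL, sub_eq_zero] at hl
    obtain ⟨c, hc⟩ := fix_F hr hσ hl
    rw [← hc, Algebra.algebraMap_eq_smul_one]
    exact Submodule.smul_mem _ _ (Submodule.mem_span_singleton_self _)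
  have h4 := Submodule.finrank_mono h1
  have h5 := Submodule.finrank_mono h2
  have h6 : finrank F (Submodule.span F {(1 : K)}) ≤ 1 := by
    have := finrank_span_le_card (R := F) ({(1 : K)} : Set K)
    simpa using this
  have h7 := LinearMap.finrank_range_add_finrank_ker L
  omega

end Tr

end Cfsg.Agent.H821.EP
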