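import Cfsg.Agent.H821.EP.ExtE
import Cfsg.Agent.H419.EP.Iface

/-!
# S3499, symplectic groups, class 3 (symplectic type): no extremely primitive action
-/

set_option autoImplicit false
set_option linter.unusedSectionVars false

namespace Cfsg.Agent.H821.EP

open Subgroup Module Cfsg.Agent.H284 Cfsg.Agent.H419.EP Cfsg.Geo Cfsg.Agent.H879 Cfsg.Agent.H879.ExtField
open scoped MatrixGroups commutatorElement

/-! ### kill criteria -/

section Kill

variable {Q : Type*} [Group Q] [Finite Q] {A : Subgroup Q} {Γ : Subgroup (MulAut Q)} (h : EPT A Γ)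
variable {ι : Type} [Fintype ι] [DecidableEq ι] {F : Type*} [Field F] {S : Subgroup (GL ι F)} (m : Model Q S)

include h

/-- the kill criterion with `K = M0` -/
theorem kill_self {x : GL ι F} (hxS : x ∈ S) (hx : x ∉ m.hat A) {g : GL ι F} (hg : g ∈ m.hat A)
    (hgK : ∀ k ∈ m.hat A, k ∈ cj x (m.hat A) → g * k * g⁻¹ ∈ cj x (m.hat A)) : g ∈ cj x (m.hat A) := by
  refine kill_char h m hxS hx (m.hat A ⊓ cj x (m.hat A)) le_rfl ?_ ?_ hg ?_
  · intro hle
    obtain ⟨s, hs, hs'⟩ := exists_nonscalar h m hxS hx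
    exact hs' (hle hs)
  · rw [M0_eq_map m hxS, Subgroup.subgroupOf_self]
    infer_instance
  · intro k hk
    obtain ⟨h1, h2⟩ := mem_inf.1 hk
    exact mem_inf.2 ⟨(m.hat A).mul_mem ((m.hat A).mul_mem hg h1) ((m.hat A).inv_mem hg), hgK k h1 h2⟩

omit h in
theorem comm_map {M : Subgroup (GL ι F)} (hM : M ≤ S) :
    ((⁅M, M⁆).subgroupOf S).map m.π = ⁅(M.subgroupOf S).map m.π, (M.subgroupOf S).map m.π⁆ := by
  rw [← Subgroup.map_commutator]
  congr 1
  apply Subgroup.map_injective S.subtype_injective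
  rw [Subgroup.subgroupOf_map_subtype, Subgroup.map_commutator, Subgroup.subgroupOf_map_subtype,
    inf_eq_left.2 hM, inf_eq_left.2 ((Subgroup.commutator_le_self _).trans hM)]

/-- the kill criterion for the centraliser of the derived group of `M0`: `Y` is its preimage. -/
theorem kill_cent {x : GL ι F} (hxS : x ∈ S) (hx : x ∉ m.hat A) :
    ∃ Y : Subgroup (GL ι F), (∀ c, c ∈ Y ↔ c ∈ m.hat A ⊓ cj x (m.hat A) ∧
      ∀ d ∈ ⁅m.hat A ⊓ cj x (m.hat A), m.hat A ⊓ cj x (m.hat A)⁆, ⁅c, d⁆ ∈ scalars ι F) ∧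
      (¬ Y ≤ scalars ι F → ∀ g ∈ m.hat A, (∀ k ∈ Y, g * k * g⁻¹ ∈ Y) → g ∈ cj x (m.hat A)) := by
  set M := m.hat A ⊓ cj x (m.hat A) with hM
  have hMS : M ≤ S := inf_le_left.trans (m.hat_le A)
  set M0 := A ⊓ cj (m.π ⟨x, hxS⟩) A with hM0
  have hM0M : m.hat M0 = M := by rw [hM0, m.hat_inf, m.hat_cj A ⟨x, hxS⟩]
  have hM0m : M0 = (M.subgroupOf S).map m.π := M0_eq_map m hxS
  have hcm : ((⁅M, M⁆).subgroupOf S).map m.π = ⁅M0, M0⁆ := by rw [hM0m]; exact comm_map m hMS
  set C : Subgroup Q := M0 ⊓ Subgroup.centralizer ((⁅M0, M0⁆ : Subgroup Q) : Set Q) with hC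
  have hmem : ∀ c, c ∈ m.hat C ↔ c ∈ M ∧ ∀ d ∈ ⁅M, M⁆, ⁅c, d⁆ ∈ scalars ι F := by
    intro c
    constructor
    · intro hc
      obtain ⟨hcS, hc1, hc2⟩ := m.mem_hat.1 hc
      refine ⟨by rw [← hM0M]; exact m.mem_hat.2 ⟨hcS, hc1⟩, fun d hd => ?_⟩
      have hdS : d ∈ S := hMS (Subgroup.commutator_le_self _ hd)
      have h1 : m.π ⟨d, hdS⟩ ∈ (⁅M0, M0⁆ : Subgroup Q) := by
        rw [← hcm]
        exact ⟨⟨d, hdS⟩, hd, rfl⟩
      have h2 : m.π ⁅(⟨c, hcS⟩ : S), ⟨d, hdS⟩⁆ = 1 := by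
        rw [map_commutatorElement, commutatorElement_eq_one_iff_mul_comm]
        exact (Subgroup.mem_centralizer_iff.1 hc2 _ h1).symm
      exact (m.ker _).1 h2
    · rintro ⟨hc, hd⟩
      have hcS := hMS hc
      have hc1 : m.π ⟨c, hcS⟩ ∈ M0 := by
        rw [← hM0M] at hc
        exact (m.mem_hat_iff ⟨c, hcS⟩).1 hc
      refine m.mem_hat.2 ⟨hcS, hc1, ?_⟩
      show m.π ⟨c, hcS⟩ ∈ Subgroup.centralizer ((⁅M0, M0⁆ : Subgroup Q) : Set Q)
      rw [Subgroup.mem_centralizer_iff]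
      intro t ht
      have ht' : t ∈ ((⁅M, M⁆).subgroupOf S).map m.π := by rw [hcm]; exact ht
      obtain ⟨d, hd', rfl⟩ := ht'
      have h2 : ((⁅(⟨c, hcS⟩ : S), d⁆ : S) : GL ι F) ∈ scalars ι F := hd _ hd'
      rw [← m.ker, map_commutatorElement, commutatorElement_eq_one_iff_mul_comm] at h2
      exact h2.symm
  refine ⟨m.hat C, hmem, fun hns g hg hgK => ?_⟩
  refine kill_char h m hxS hx (m.hat C) (fun c hc => ((hmem c).1 hc).1) hns ?_ hg hgK
  have e1 : ((m.hat C).subgroupOf S).map m.π = C := m.map_hat C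
  rw [e1]
  have e2 : C.subgroupOf M0 = Subgroup.centralizer ((commutator M0 : Subgroup M0) : Set M0) := by
    have e3 : (commutator M0 : Subgroup M0).map M0.subtype = ⁅M0, M0⁆ := by
      rw [_root_.commutator_def, Subgroup.map_commutator, ← MonoidHom.range_eq_map, Subgroup.range_subtype]
    ext y
    rw [Subgroup.mem_subgroupOf, Subgroup.mem_centralizer_iff]
    constructor
    · rintro ⟨-, h1⟩ t ht
      apply Subtype.ext
      refine Subgroup.mem_centralizer_iff.1 h1 t ?_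
      have : (t : Q) ∈ (commutator M0 : Subgroup M0).map M0.subtype := ⟨t, ht, rfl⟩
      rw [e3] at this
      exact this
    · intro h1
      refine ⟨y.2, ?_⟩
      show (y : Q) ∈ Subgroup.centralizer _
      rw [Subgroup.mem_centralizer_iff]
      intro t ht
      have ht' : t ∈ (commutator M0 : Subgroup M0).map M0.subtype := by rw [e3]; exact ht
      obtain ⟨t, ht'', rfl⟩ := ht'
      exact congrArg Subtype.val (h1 t ht'')
  rw [hM0] at e2
  rw [e2]
  infer_instance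

end Kill

/-! ### the transvections over `F` -/

section FT

variable {F K V : Type*} [Field F] [Field K] [Algebra F K] [AddCommGroup V]
  [Module F V] [Module K V] [IsScalarTower F K V] {φ : V →ₗ[K] V →ₗ[K] K} {ℓ : K →ₗ[F] F}

/-- `x ↦ x + ℓ(φ(x, v)) v` -/
def fT (ℓ : K →ₗ[F] F) (halt : ∀ x, φ x x = 0) (v : V) : V ≃ₗ[F] V where
  toFun := fun x => x + ℓ (φ x v) • v
  invFun := fun x => x - ℓ (φ x v) • v
  map_add' := fun x y => by
    simp only [map_add, LinearMap.add_apply]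
    module
  map_smul' := fun c x => by
    rw [RingHom.id_apply, ← algebraMap_smul K c x, φ.map_smul, LinearMap.smul_apply, algebraMap_smul,
      algebraMap_smul, map_smul, smul_add, smul_assoc]
  left_inv := fun x => by
    have h1 : φ (ℓ (φ x v) • v) v = 0 := by
      rw [← algebraMap_smul K (ℓ (φ x v)) v, φ.map_smul, LinearMap.smul_apply, halt, smul_zero]
    simp only [map_add, LinearMap.add_apply, h1, add_zero, add_sub_cancel_right]
  right_inv := fun x => by
    have h1 : φ (ℓ (φ x v) • v) v = 0 := by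
      rw [← algebraMap_smul K (ℓ (φ x v)) v, φ.map_smul, LinearMap.smul_apply, halt, smul_zero]
    simp only [map_sub, LinearMap.sub_apply, h1, sub_zero, sub_add_cancel]

variable (halt : ∀ x, φ x x = 0)
include halt

theorem fT_apply (v x : V) : fT ℓ halt v x = x + ℓ (φ x v) • v := rfl

theorem fT_inv_apply (v x : V) : (fT ℓ halt v)⁻¹ x = x - ℓ (φ x v) • v := rfl

theorem phi_smul_right (c : F) (x y : V) : φ x (c • y) = c • φ x y := by
  rw [← algebraMap_smul K c y, (φ x).map_smul, algebraMap_smul]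

theorem phi_smul_left (c : F) (x y : V) : φ (c • x) y = c • φ x y := by
  rw [← algebraMap_smul K c x, φ.map_smul, LinearMap.smul_apply, algebraMap_smul]

theorem fT_iso (v x y : V) : ℓ (φ (fT ℓ halt v x) (fT ℓ halt v y)) = ℓ (φ x y) := by
  rw [fT_apply, fT_apply]
  simp only [map_add, LinearMap.add_apply, phi_smul_right halt, phi_smul_left halt, halt, map_smul, smul_eq_mul,
    smul_zero, add_zero]
  rw [skew_of halt v y, map_neg]
  ring

theorem fT_conj {g : V ≃ₗ[F] V} (hf : ∀ x y, ℓ (φ (g x) (g y)) = ℓ (φ x y)) (v : V) :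
    g * fT ℓ halt v * g⁻¹ = fT ℓ halt (g v) := by
  ext x
  rw [LinearEquiv.mul_apply, LinearEquiv.mul_apply, fT_apply, fT_apply, map_add, map_smul, apply_inv_apply, ← hf,
    apply_inv_apply]

theorem fT_semi_iff {v w : V} (hv : v ≠ 0) :
    (∃ σ : K ≃ₐ[F] K, ∀ (κ : K) x, ((fT ℓ halt v)⁻¹ * fT ℓ halt w) (κ • x) = σ κ • ((fT ℓ halt v)⁻¹ * fT ℓ halt w) x) ↔
      ∀ (κ : K) x, E φ ℓ w κ x = E φ ℓ v κ x := by
  constructor
  · rintro ⟨σ, hσ⟩ κ
    refine (eq_of_E halt hv (κ := κ) (κ' := σ κ) fun y => ?_).2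
    have h1 := hσ κ ((fT ℓ halt w)⁻¹ y)
    rw [LinearEquiv.mul_apply, LinearEquiv.mul_apply, apply_inv_apply] at h1
    have h2 := congrArg (fT ℓ halt v) h1
    rw [apply_inv_apply, fT_inv_apply, fT_inv_apply, fT_apply, fT_apply, T_conj halt, T_conj halt] at h2
    exact h2
  · intro hE
    refine ⟨AlgEquiv.refl, fun κ x => ?_⟩
    show _ = κ • _
    apply (fT ℓ halt v).injective
    rw [LinearEquiv.mul_apply, LinearEquiv.mul_apply, apply_inv_apply]
    have h1 : x = (fT ℓ halt w)⁻¹ (fT ℓ halt w x) := (inv_apply_apply _ _).symm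
    conv_lhs => rw [h1]
    generalize fT ℓ halt w x = y
    rw [fT_inv_apply, fT_inv_apply, fT_apply, fT_apply, T_conj halt, T_conj halt, hE]

end FT

/-! ### the core -/

section Core

variable {Q : Type*} [Group Q] [Finite Q] {A : Subgroup Q} {Γ : Subgroup (MulAut Q)} (h : EPT A Γ)
variable {ι : Type} [Fintype ι] [DecidableEq ι] {F : Type*} [Field F] {S : Subgroup (GL ι F)} (m : Model Q S)
variable {K : Type*} [Field K] [Algebra F K] [Module K (ι → F)] [IsScalarTower F K (ι → F)]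
  {φ : (ι → F) →ₗ[K] (ι → F) →ₗ[K] K} {ℓ : K →ₗ[F] F}

/-- semilinear -/
def Sl (K : Type*) [Field K] [Algebra F K] [Module K (ι → F)] (g : GL ι F) (σ : K ≃ₐ[F] K) : Prop :=
  ∀ (κ : K) x, toEq g (κ • x) = σ κ • toEq g x

theorem Sl.mul {g g' : GL ι F} {σ σ' : K ≃ₐ[F] K} (hg : Sl K g σ) (hg' : Sl K g' σ') : Sl K (g * g') (σ * σ') := by
  intro κ x
  rw [map_mul, LinearEquiv.mul_apply, hg', hg]
  rfl

theorem Sl.inv {g : GL ι F} {σ : K ≃ₐ[F] K} (hg : Sl K g σ) : Sl K g⁻¹ σ⁻¹ := by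
  intro κ x
  rw [map_inv]
  apply (toEq g).injective
  rw [apply_inv_apply, hg, apply_inv_apply]
  have h1 : σ (σ⁻¹ κ) = κ := σ.apply_symm_apply κ
  rw [h1]

/-- The data of the class 3 subgroup. -/
structure Dat (m : Model Q S) (A : Subgroup Q) (φ : (ι → F) →ₗ[K] (ι → F) →ₗ[K] K) (ℓ : K →ₗ[F] F) : Prop where
  halt : ∀ x, φ x x = 0
  hnd : ∀ x, x ≠ 0 → ∃ y, φ x y ≠ 0
  hl : ℓ ≠ 0
  hr : (finrank F K).Prime
  hS : ∀ g : GL ι F, g ∈ S ↔ ∀ x y, ℓ (φ (toEq g x) (toEq g y)) = ℓ (φ x y)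
  hA : ∀ g : GL ι F, g ∈ m.hat A ↔ g ∈ S ∧ ∃ σ : K ≃ₐ[F] K, Sl K g σ
  hne : ∃ v : ι → F, v ≠ 0

variable {m}

namespace Dat

variable (D : Dat m A φ ℓ)
include D

theorem hnd' (x : ι → F) (hx : x ≠ 0) : ∃ y, φ y x ≠ 0 := by
  obtain ⟨y, hy⟩ := D.hnd x hx
  exact ⟨y, by rw [skew_of D.halt, neg_ne_zero]; exact hy⟩

theorem exists_K : ∃ κ : K, ∀ c : F, algebraMap F K c ≠ κ := by
  by_contra hcon
  push Not at hcon
  have h1 : (⊤ : Submodule F K) ≤ Submodule.span F {(1 : K)} := by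
    intro κ _
    obtain ⟨c, rfl⟩ := hcon κ
    rw [Algebra.algebraMap_eq_smul_one]
    exact Submodule.smul_mem _ _ (Submodule.mem_span_singleton_self _)
  have : FiniteDimensional F K := FiniteDimensional.of_finrank_pos D.hr.pos
  have h4 := Submodule.finrank_mono h1
  have h6 : finrank F (Submodule.span F {(1 : K)}) ≤ 1 := by
    have := finrank_span_le_card (R := F) ({(1 : K)} : Set K)
    simpa using this
  rw [finrank_top] at h4
  have := D.hr.two_le
  omega

/-- `K`-linear isometries -/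
theorem mem_of_PK {γ : (ι → F) ≃ₗ[F] (ι → F)} (hγ : γ ∈ PK F φ) : toEq.symm γ ∈ m.hat A := by
  rw [D.hA, D.hS]
  refine ⟨fun x y => by rw [MulEquiv.apply_symm_apply, hγ.2], AlgEquiv.refl, fun κ x => ?_⟩
  rw [MulEquiv.apply_symm_apply]
  exact hγ.1 κ x

theorem z_mem (v : ι → F) : toEq.symm (fT ℓ D.halt v) ∈ S := by
  rw [D.hS]
  intro x y
  rw [MulEquiv.apply_symm_apply, fT_iso D.halt]

/-- **conjugates of `Â` by transvections** -/
theorem mem_cj_iff {v : ι → F} (hv : v ≠ 0) {g : GL ι F} (hg : g ∈ m.hat A) :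
    g ∈ cj (toEq.symm (fT ℓ D.halt v)) (m.hat A) ↔ ∀ (κ : K) x, E φ ℓ (toEq g v) κ x = E φ ℓ v κ x := by
  set z : GL ι F := toEq.symm (fT ℓ D.halt v) with hz
  have hgS := ((D.hA g).1 hg).1
  have hgf := (D.hS g).1 hgS
  have e1 : z⁻¹ * g * z = (z⁻¹ * (g * z * g⁻¹)) * g := by group
  rw [mem_cj, e1, Subgroup.mul_mem_cancel_right _ hg, ← fT_semi_iff D.halt hv (w := toEq g v), D.hA]
  have e2 : toEq (z⁻¹ * (g * z * g⁻¹)) = (fT ℓ D.halt v)⁻¹ * fT ℓ D.halt (toEq g v) := by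
    rw [map_mul, map_mul, map_mul, map_inv, map_inv, hz, MulEquiv.apply_symm_apply, fT_conj D.halt hgf]
  constructor
  · rintro ⟨-, σ, hσ⟩
    refine ⟨σ, fun κ x => ?_⟩
    have := hσ κ x
    rw [e2] at this
    exact this
  · rintro ⟨σ, hσ⟩
    refine ⟨S.mul_mem (S.inv_mem (D.z_mem v)) (S.mul_mem (S.mul_mem hgS (D.z_mem v)) (S.inv_mem hgS)), σ, fun κ x => ?_⟩
    rw [e2]
    exact hσ κ x

theorem z_notMem {v : ι → F} (hv : v ≠ 0) : toEq.symm (fT ℓ D.halt v) ∉ m.hat A := by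
  set z : GL ι F := toEq.symm (fT ℓ D.halt v) with hz
  intro hzA
  obtain ⟨κ, hκ⟩ := D.exists_K
  obtain ⟨hzS, σ, hσ⟩ := (D.hA z).1 hzA
  -- `σ κ = κ`, and `E_v(κ) = 0`
  obtain ⟨x, hx⟩ := exists_E_ne (D.hnd') D.hl hv hκ
  -- `T κ T⁻¹ = σ κ`
  have h2 : ∀ y, κ • y + E φ ℓ v κ y = σ κ • y + E φ ℓ v 0 y := by
    intro y
    have e1 := hσ κ ((fT ℓ D.halt v)⁻¹ y)
    rw [hz, MulEquiv.apply_symm_apply, apply_inv_apply, fT_inv_apply, fT_apply, T_conj D.halt] at e1
    rw [e1]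
    have e2 : E φ ℓ v (0 : K) y = 0 := by
      unfold E
      rw [zero_smul, map_zero, map_zero, zero_smul, smul_zero, sub_zero]
    rw [e2, add_zero]
  have h3 : E φ ℓ v κ v = 0 := by
    have := E_self (ℓ := ℓ) D.halt v κ 1
    rwa [one_smul] at this
  have h4 := h2 v
  have e2 : ∀ y, E φ ℓ v (0 : K) y = 0 := by
    intro y
    unfold E
    rw [zero_smul, map_zero, map_zero, zero_smul, smul_zero, sub_zero]
  rw [h3, e2, add_zero, add_zero] at h4
  have h5 : σ κ = κ := by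
    have : (σ κ - κ) • v = 0 := by rw [sub_smul, ← h4, sub_self]
    exact sub_eq_zero.1 ((smul_eq_zero.1 this).resolve_right hv)
  apply hx
  have h6 := h2 x
  rw [h5, e2, add_zero] at h6
  exact left_eq_add.1 h6.symm

include h

/-- (A), (B): scaling -/
theorem kill_scale {κ₀ : K} (h0 : κ₀ ≠ 0) {c : F} (hc : c ≠ 0) (hc1 : c ≠ 1)
    (hsc : ∀ (u : ι → F) (κ : K) x, E φ ℓ (κ₀ • u) κ x = c • E φ ℓ u κ x) : False := by
  obtain ⟨v, hv⟩ := D.hne
  obtain ⟨γ, hγ, hγv⟩ := exists_h (F := F) D.halt D.hnd D.hl hv h0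
  have hgA := D.mem_of_PK hγ
  have h1 : toEq.symm γ ∈ cj (toEq.symm (fT ℓ D.halt v)) (m.hat A) := by
    refine kill_self h m (D.z_mem v) (D.z_notMem hv) hgA fun k hk hkz => ?_
    obtain ⟨hkS, σ, hσ⟩ := (D.hA k).1 hk
    have hkE := (D.mem_cj_iff hv hk).1 hkz
    rw [D.mem_cj_iff hv ((m.hat A).mul_mem ((m.hat A).mul_mem hgA hk) ((m.hat A).inv_mem hgA))]
    intro κ x
    rw [map_mul, map_mul, map_inv, MulEquiv.apply_symm_apply, LinearEquiv.mul_apply, LinearEquiv.mul_apply]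
    exact E_conj hγ.1 (fun x y => by rw [hγ.2]) hσ ((D.hS k).1 hkS) h0 hc hsc hγv hkE κ x
  rw [D.mem_cj_iff hv hgA, MulEquiv.apply_symm_apply, hγv] at h1
  obtain ⟨κ, hκ⟩ := D.exists_K
  obtain ⟨x, hx⟩ := exists_E_ne (D.hnd') D.hl hv hκ
  have h2 := h1 κ x
  rw [hsc] at h2
  have h3 : (c - 1) • E φ ℓ v κ x = 0 := by rw [sub_smul, h2, one_smul, sub_self]
  exact hx ((smul_eq_zero.1 h3).resolve_left (sub_ne_zero.2 hc1))

omit h in
theorem one_mem_PK {k : GL ι F} (hk : toEq k ∈ PK F φ) : k ∈ m.hat A := by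
  have := D.mem_of_PK hk
  rwa [MulEquiv.symm_apply_apply] at this

/-- the scaling for `c ∈ F`, `c² ≠ 0, 1` -/
theorem kill_four {c : F} (hc : c ≠ 0) (hc1 : c * c ≠ 1) : False := by
  refine D.kill_scale h (κ₀ := algebraMap F K c) (c := c * c) ?_ (mul_ne_zero hc hc) hc1 fun u κ x => E_smul c u κ x
  intro h0
  exact hc ((map_eq_zero (algebraMap F K)).1 h0)

/-- `|F| = 3`, `dim K = 2` -/
theorem kill_two [Fintype F] (h3 : Fintype.card F = 3) (h2 : finrank F K = 2) : False := by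
  have hthree : (3 : F) = 0 := by
    have := Nat.cast_card_eq_zero F
    rw [h3] at this
    exact_mod_cast this
  have hone : (1 : F) ≠ 0 := one_ne_zero
  have htwo : (2 : F) ≠ 0 := by
    intro h0
    apply hone
    linear_combination hthree - h0
  have htwo1 : (2 : F) ≠ 1 := by
    intro h0
    apply hone
    linear_combination h0
  have hfd : FiniteDimensional F K := FiniteDimensional.of_finrank_pos D.hr.pos
  have hKfin : Finite K := Module.finite_of_finite F
  have : Fintype K := Fintype.ofFinite K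
  have hcard : Fintype.card K = 9 := by
    rw [Module.card_eq_pow_finrank (K := F) (V := K), h3, h2]
    norm_num
  obtain ⟨i, hi⟩ : IsSquare (-1 : K) := by
    rw [FiniteField.isSquare_neg_one_iff, hcard]
    norm_num
  have hiF : ∀ c : F, algebraMap F K c ≠ i := by
    rintro c rfl
    have e1 : c * c = -1 := by
      apply (algebraMap F K).injective
      rw [map_mul, ← hi, map_neg, map_one]
    have e2 : c ^ 3 = c := by
      rw [← h3]
      exact FiniteField.pow_card c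
    have e3 : 2 * c = 0 := by linear_combination c * e1 - e2
    have e4 : c = 0 := (mul_eq_zero.1 e3).resolve_left htwo
    rw [e4] at e1
    apply hone
    linear_combination e1
  -- `K = F + F i`
  have hspan : ∀ κ : K, ∃ α β : F, κ = algebraMap F K α + β • i := by
    let L : (F × F) →ₗ[F] K :=
      { toFun := fun p => algebraMap F K p.1 + p.2 • i
        map_add' := fun p q => by
          rw [Prod.fst_add, Prod.snd_add, map_add, add_smul]
          abel
        map_smul' := fun c p => by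
          rw [Prod.smul_fst, Prod.smul_snd, smul_eq_mul, map_mul, RingHom.id_apply, smul_add, smul_assoc,
            ← Algebra.smul_def] }
    have hL : Function.Injective L := by
      rw [← LinearMap.ker_eq_bot, LinearMap.ker_eq_bot']
      rintro ⟨a, b⟩ hab
      have e1 : algebraMap F K a + b • i = 0 := hab
      have hb : b = 0 := by
        by_contra hb
        apply hiF (-(b⁻¹ * a))
        have e2 : i = b⁻¹ • (b • i) := by rw [smul_smul, inv_mul_cancel₀ hb, one_smul]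
        rw [e2, eq_neg_of_add_eq_zero_right e1, map_neg, map_mul, smul_neg, ← Algebra.smul_def]
      rw [hb, zero_smul, add_zero] at e1
      rw [(map_eq_zero (algebraMap F K)).1 e1, hb]
      rfl
    have hL' : Function.Surjective L :=
      (LinearMap.injective_iff_surjective_of_finrank_eq_finrank (by rw [h2, finrank_prod, finrank_self])).1 hL
    intro κ
    obtain ⟨⟨a, b⟩, hab⟩ := hL' κ
    exact ⟨a, b, hab.symm⟩
  refine D.kill_scale h (κ₀ := 1 + i) (c := 2) ?_ htwo htwo1 fun u κ x => ?_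
  · intro h0
    apply hiF (-1)
    rw [map_neg, map_one]
    linear_combination -h0
  · obtain ⟨α, β, rfl⟩ := hspan κ
    have hii : ∀ y : ι → F, i • i • y = -y := by
      intro y
      rw [smul_smul, ← hi, neg_smul, one_smul]
    unfold E
    have e1 : (algebraMap F K α + β • i) • (1 + i) • u = α • u + α • (i • u) + (β • (i • u) - β • u) := by
      rw [add_smul (algebraMap F K α), algebraMap_smul, add_smul (1 : K), one_smul, smul_add α, smul_assoc β,
        smul_add i, hii, smul_add β, smul_neg]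
      abel
    have e2 : (algebraMap F K α + β • i) • u = α • u + β • (i • u) := by
      rw [add_smul (algebraMap F K α), algebraMap_smul, smul_assoc β]
    have e3 : (1 + i) • u = u + i • u := by rw [add_smul, one_smul]
    rw [e1, e2, e3]
    clear e1 e2 e3
    generalize i • u = w
    simp only [map_add, map_sub, phi_smul_right D.halt, map_smul, smul_eq_mul]
    generalize ℓ (φ x u) = s
    generalize ℓ (φ x w) = t
    module

omit h in
theorem toEq_neg (g : GL ι F) (x : ι → F) : toEq (-1 * g) x = -toEq g x := by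
  rw [toEq_apply, toEq_apply, neg_one_mul, Units.val_neg, Matrix.neg_mulVec]

omit h in
theorem neg_mem {g : GL ι F} (hg : g ∈ m.hat A) : (-1 * g) ∈ m.hat A := by
  refine (m.hat A).mul_mem (m.scal_le A ⟨?_, ?_⟩) hg
  · show (-1 : GL ι F) ∈ scalars ι F
    rw [mem_scalars_iff]
    exact ⟨-1, by simp⟩
  · show (-1 : GL ι F) ∈ S
    rw [D.hS]
    intro x y
    have := D.toEq_neg 1
    rw [mul_one] at this
    rw [this, this, map_one, LinearEquiv.coe_one, id_eq, id_eq, φ.map_neg, LinearMap.neg_apply, (φ x).map_neg,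
      neg_neg]

omit h in
/-- the elements of `M̂0` map `v` to `± v`. -/
theorem mem_M_iff (hdim : 3 ≤ finrank F K) {v : ι → F} (hv : v ≠ 0) {g : GL ι F} (hg : g ∈ m.hat A) :
    g ∈ cj (toEq.symm (fT ℓ D.halt v)) (m.hat A) ↔ toEq g v = v ∨ toEq g v = -v := by
  rw [D.mem_cj_iff hv hg]
  constructor
  · intro hE
    exact eq_or_neg (D.hnd') D.hl hdim hv (fun h0 => hv ((toEq g).injective (by rw [h0, map_zero]))) hE
  · rintro (h1 | h1) κ x
    · rw [h1]
    · rw [h1]
      have := E_smul (φ := φ) (ℓ := ℓ) (-1) v κ x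
      rw [map_neg, map_one, neg_smul, one_smul] at this
      rw [this]
      norm_num

/-- all the elements of `M̂0` are `K`-linear -/
theorem kill_lin (hdim : 3 ≤ finrank F K) {v : ι → F} (hv : v ≠ 0)
    (hlin : ∀ g ∈ m.hat A, (toEq g v = v ∨ toEq g v = -v) → ∀ (κ : K) x, toEq g (κ • x) = κ • toEq g x) : False := by
  obtain ⟨κ₀, hκ₀⟩ := D.exists_K
  have h0 : κ₀ ≠ 0 := by
    rintro rfl
    exact hκ₀ 0 (map_zero _)
  obtain ⟨γ, hγ, hγv⟩ := exists_h (F := F) D.halt D.hnd D.hl hv h0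
  have hgA := D.mem_of_PK hγ
  have h1 : toEq.symm γ ∈ cj (toEq.symm (fT ℓ D.halt v)) (m.hat A) := by
    refine kill_self h m (D.z_mem v) (D.z_notMem hv) hgA fun k hk hkz => ?_
    rw [D.mem_M_iff hdim hv hk] at hkz
    rw [D.mem_M_iff hdim hv ((m.hat A).mul_mem ((m.hat A).mul_mem hgA hk) ((m.hat A).inv_mem hgA))]
    rw [map_mul, map_mul, map_inv, MulEquiv.apply_symm_apply, LinearEquiv.mul_apply, LinearEquiv.mul_apply]
    have e1 : γ⁻¹ v = κ₀⁻¹ • v := by
      apply γ.injective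
      rw [apply_inv_apply, hγ.1, hγv, smul_smul, inv_mul_cancel₀ h0, one_smul]
    rw [e1, hlin k hk hkz, hγ.1]
    rcases hkz with h2 | h2
    · left
      rw [h2, hγv, smul_smul, inv_mul_cancel₀ h0, one_smul]
    · right
      rw [h2, map_neg, hγv, smul_neg, smul_smul, inv_mul_cancel₀ h0, one_smul]
  rw [D.mem_M_iff hdim hv hgA, MulEquiv.apply_symm_apply, hγv] at h1
  rcases h1 with h1 | h1
  · have : (κ₀ - 1) • v = 0 := by rw [sub_smul, h1, one_smul, sub_self]
    exact hκ₀ 1 (by rw [map_one, sub_eq_zero.1 ((smul_eq_zero.1 this).resolve_right hv)])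
  · have : (κ₀ + 1) • v = 0 := by rw [add_smul, h1, one_smul, neg_add_cancel]
    exact hκ₀ (-1) (by
      rw [map_neg, map_one, eq_neg_of_add_eq_zero_left ((smul_eq_zero.1 this).resolve_right hv)])

end Dat

end Core

/-! ### the semilinear case -/

section Semi

variable {Q : Type*} [Group Q] [Finite Q] {A : Subgroup Q} {Γ : Subgroup (MulAut Q)} (h : EPT A Γ)
variable {ι : Type} [Fintype ι] [DecidableEq ι] {F : Type*} [Field F] {S : Subgroup (GL ι F)} {m : Model Q S}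
variable {K : Type*} [Field K] [Algebra F K] [Module K (ι → F)] [IsScalarTower F K (ι → F)]
  {φ : (ι → F) →ₗ[K] (ι → F) →ₗ[K] K} (D : Dat m A φ (Algebra.trace F K))

include D

theorem tv_mem_M (hdim : 3 ≤ finrank F K) {v : ι → F} (hv : v ≠ 0) {u : ι → F} (huv : φ v u = 0) (a : K) :
    toEq.symm (tvE F D.halt u a) ∈ m.hat A ⊓ cj (toEq.symm (fT (Algebra.trace F K) D.halt v)) (m.hat A) := by
  have h1 := D.mem_of_PK (tvE_mem (F := F) D.halt u a)
  refine mem_inf.2 ⟨h1, ?_⟩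
  rw [D.mem_M_iff hdim hv h1, MulEquiv.apply_symm_apply, tvE_apply, huv, mul_zero, zero_smul, add_zero]
  exact Or.inl rfl

/-- the commutators of `M̂0` are `K`-linear isometries and fix `v` -/
theorem comm_le [Finite K] (hdim : 3 ≤ finrank F K) {v : ι → F} (hv : v ≠ 0) {g : GL ι F}
    (hg : g ∈ ⁅m.hat A ⊓ cj (toEq.symm (fT (Algebra.trace F K) D.halt v)) (m.hat A),
      m.hat A ⊓ cj (toEq.symm (fT (Algebra.trace F K) D.halt v)) (m.hat A)⁆) :
    toEq g ∈ PK F φ ∧ toEq g v = v := by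
  let P' : Subgroup (GL ι F) :=
    { carrier := {g | toEq g ∈ PK F φ ∧ toEq g v = v}
      mul_mem' := by
        rintro a b ⟨ha, ha'⟩ ⟨hb, hb'⟩
        refine ⟨?_, ?_⟩
        · rw [map_mul]
          exact (PK F φ).mul_mem ha hb
        · rw [map_mul, LinearEquiv.mul_apply, hb', ha']
      one_mem' := ⟨by rw [map_one]; exact (PK F φ).one_mem, by rw [map_one]; rfl⟩
      inv_mem' := by
        rintro a ⟨ha, ha'⟩
        refine ⟨?_, ?_⟩
        · rw [map_inv]
          exact (PK F φ).inv_mem ha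
        · rw [map_inv]
          apply (toEq a).injective
          rw [apply_inv_apply, ha'] }
  have hle : ⁅m.hat A ⊓ cj (toEq.symm (fT (Algebra.trace F K) D.halt v)) (m.hat A),
      m.hat A ⊓ cj (toEq.symm (fT (Algebra.trace F K) D.halt v)) (m.hat A)⁆ ≤ P' := by
    rw [Subgroup.commutator_le]
    intro a ha b hb
    obtain ⟨haA, haz⟩ := mem_inf.1 ha
    obtain ⟨hbA, hbz⟩ := mem_inf.1 hb
    obtain ⟨haS, σ, hσ⟩ := (D.hA a).1 haA
    obtain ⟨hbS, τ, hτ⟩ := (D.hA b).1 hbA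
    rw [D.mem_M_iff hdim hv haA] at haz
    rw [D.mem_M_iff hdim hv hbA] at hbz
    have h1 : Sl K ⁅a, b⁆ (σ * τ * σ⁻¹ * τ⁻¹) := ((hσ.mul hτ).mul hσ.inv).mul hτ.inv
    have h2 : σ * τ * σ⁻¹ * τ⁻¹ = 1 := by
      have h3 : σ * τ = τ * σ := IsMulCommutative.is_comm.comm σ τ
      rw [h3]
      group
    rw [h2] at h1
    have hcS : ⁅a, b⁆ ∈ S := S.mul_mem (S.mul_mem (S.mul_mem haS hbS) (S.inv_mem haS)) (S.inv_mem hbS)
    have h3 := phi_semi D.hl (g := toEq ⁅a, b⁆) (σ := 1) h1 ((D.hS _).1 hcS)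
    refine ⟨⟨h1, h3⟩, ?_⟩
    have key : ∀ g : GL ι F, (toEq g v = v ∨ toEq g v = -v) →
        ∃ ε : F, ε * ε = 1 ∧ toEq g v = ε • v ∧ toEq g⁻¹ v = ε • v := by
      intro g hg
      obtain ⟨ε, hε, h4⟩ : ∃ ε : F, ε * ε = 1 ∧ toEq g v = ε • v := by
        rcases hg with h4 | h4
        · exact ⟨1, mul_one _, by rw [h4, one_smul]⟩
        · exact ⟨-1, by ring, by rw [h4, neg_smul, one_smul]⟩
      refine ⟨ε, hε, h4, ?_⟩
      rw [map_inv]
      apply (toEq g).injective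
      rw [apply_inv_apply, map_smul, h4, smul_smul, hε, one_smul]
    obtain ⟨ε, hε, h4, h5⟩ := key a haz
    obtain ⟨δ, hδ, h6, h7⟩ := key b hbz
    rw [commutatorElement_def, map_mul, map_mul, map_mul, LinearEquiv.mul_apply, LinearEquiv.mul_apply,
      LinearEquiv.mul_apply]
    simp only [h7, map_smul, h5, h6, h4, smul_smul]
    have e1 : δ * ε * δ * ε = 1 := by linear_combination (δ * δ) * hε + hδ
    rw [e1, one_smul]
  exact hle hg

/-- `[τ, T_{u,l}] = T_{u, σ l - l}` for `τ u = ± u`, `[d, T_{u,a}] = T_{κu, a} T_{u,-a}` -/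
theorem comm_tv {g : GL ι F} (hg : g ∈ m.hat A) {σ : K ≃ₐ[F] K} (hσ : Sl K g σ) (u : ι → F) (a : K) :
    toEq ⁅g, toEq.symm (tvE F D.halt u a)⁆ = tvE F D.halt (toEq g u) (σ a) * tvE F D.halt u (-a) := by
  rw [commutatorElement_def, map_mul, map_mul, map_mul, map_inv, map_inv, MulEquiv.apply_symm_apply, tvE_inv,
    tvE_conj D.halt hσ (phi_semi D.hl hσ ((D.hS g).1 ((D.hA g).1 hg).1))]

theorem tv_neg (v : ι → F) (a : K) : tvE F D.halt (-v) a = tvE F D.halt v a := by
  have := tvE_smul (F := F) D.halt v (-1) a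
  rw [neg_smul, one_smul] at this
  rw [this]
  congr 1
  ring

theorem tv_inj {v : ι → F} (hv : v ≠ 0) {a : K} (ha : tvE F D.halt v a = 1) : a = 0 := by
  obtain ⟨y, hy⟩ := D.hnd' v hv
  have h1 := congrArg (fun g : (ι → F) ≃ₗ[F] (ι → F) => g y) ha
  have h2 : y + (a * φ y v) • v = y := h1
  have h3 : (a * φ y v) • v = 0 := add_eq_left.1 h2
  exact (mul_eq_zero.1 ((smul_eq_zero.1 h3).resolve_right hv)).resolve_right hy

/-- the elements of `M̂0` centralising `M̂0'` modulo scalars -/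
theorem eq_pm [Finite K] (hdim : 3 ≤ finrank F K) (h2 : (2 : F) ≠ 0) {v : ι → F} (hv : v ≠ 0) {τ : GL ι F}
    (hτ : τ ∈ m.hat A) (hτv : toEq τ v = v ∨ toEq τ v = -v) {σ : K ≃ₐ[F] K} (hσ : Sl K τ σ)
    (hσ1 : ∃ κ, σ κ ≠ κ) {c : GL ι F}
    (hc : c ∈ m.hat A ⊓ cj (toEq.symm (fT (Algebra.trace F K) D.halt v)) (m.hat A))
    (hcd : ∀ d ∈ ⁅m.hat A ⊓ cj (toEq.symm (fT (Algebra.trace F K) D.halt v)) (m.hat A),
      m.hat A ⊓ cj (toEq.symm (fT (Algebra.trace F K) D.halt v)) (m.hat A)⁆, ⁅c, d⁆ ∈ scalars ι F) :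
    ∃ a : K, toEq c = tvE F D.halt v a ∨ toEq (-1 * c) = tvE F D.halt v a := by
  set M := m.hat A ⊓ cj (toEq.symm (fT (Algebra.trace F K) D.halt v)) (m.hat A) with hM
  obtain ⟨hcA, hcz⟩ := mem_inf.1 hc
  rw [D.mem_M_iff hdim hv hcA] at hcz
  obtain ⟨hcS, ρ, hρ⟩ := (D.hA c).1 hcA
  have hvv : φ v v = 0 := D.halt v
  have hτM : τ ∈ M := mem_inf.2 ⟨hτ, (D.mem_M_iff hdim hv hτ).2 hτv⟩
  -- `ρ` fixes `σ l - l`
  have hfix : ∀ l : K, ρ (σ l - l) = σ l - l := by
    intro l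
    have hd := Subgroup.commutator_mem_commutator hτM (tv_mem_M D hdim hv hvv l)
    have e1 : toEq ⁅τ, toEq.symm (tvE F D.halt v l)⁆ = tvE F D.halt v (σ l - l) := by
      rw [comm_tv D hτ hσ]
      rcases hτv with h3 | h3
      · rw [h3, tvE_mul, sub_eq_add_neg]
      · rw [h3, tv_neg D, tvE_mul, sub_eq_add_neg]
    set d := ⁅τ, toEq.symm (tvE F D.halt v l)⁆ with hdd
    have e2 : d = toEq.symm (tvE F D.halt v (σ l - l)) := by rw [← e1, MulEquiv.symm_apply_apply]
    have h3 := hcd d hd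
    rw [mem_scalars_iff] at h3
    obtain ⟨s, hs⟩ := h3
    have e3 : toEq ⁅c, d⁆ = tvE F D.halt v (ρ (σ l - l) - (σ l - l)) := by
      rw [e2, comm_tv D hcA hρ]
      rcases hcz with h3 | h3
      · rw [h3, tvE_mul, ← sub_eq_add_neg]
      · rw [h3, tv_neg D, tvE_mul, ← sub_eq_add_neg]
    have e4 : ∀ x, toEq ⁅c, d⁆ x = (s : F) • x := by
      intro x
      rw [toEq_apply, hs, Matrix.smul_mulVec, Matrix.one_mulVec]
    have e5 : (s : F) = 1 := by
      have e6 := e4 v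
      rw [e3, tvE_apply, hvv, mul_zero, zero_smul, add_zero] at e6
      have e7 : ((s : F) - 1) • v = 0 := by rw [sub_smul, ← e6, one_smul, sub_self]
      exact sub_eq_zero.1 ((smul_eq_zero.1 e7).resolve_right hv)
    have e6 : tvE F D.halt v (ρ (σ l - l) - (σ l - l)) = 1 := by
      rw [← e3]
      ext x
      rw [e4, e5, one_smul]
      rfl
    exact sub_eq_zero.1 (tv_inj D hv e6)
  -- `ρ = 1`
  have hρ1 : ∀ κ, ρ κ = κ := by
    by_contra hcon
    push Not at hcon
    obtain ⟨l, hl⟩ := exists_not_fix D.hr hdim hσ1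
    obtain ⟨b, hb⟩ := fix_F D.hr hcon (hfix l)
    exact hl b hb
  have hρ1' : ρ = 1 := AlgEquiv.ext hρ1
  have hcPK : toEq c ∈ PK F φ := by
    refine ⟨fun κ x => by rw [hρ, hρ1], fun x y => ?_⟩
    rw [phi_semi D.hl hρ ((D.hS c).1 hcS), hρ1]
  have h2K : (2 : K) ≠ 0 := by
    intro h0
    apply h2
    apply (algebraMap F K).injective
    rw [map_zero, map_ofNat]
    exact h0
  -- the transvections at `u`
  have hu : ∀ u, φ u v = 0 → (∀ k : K, u ≠ k • v) → ∃ s : F, ∀ x,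
      (toEq c * tvE F D.halt u 1 * (toEq c)⁻¹) x = s • tvE F D.halt u 1 x := by
    intro u hu hu'
    obtain ⟨κ, hκ⟩ := D.exists_K
    have hκ0 : κ ≠ 0 := by
      rintro rfl
      exact hκ 0 (map_zero _)
    obtain ⟨δ, hδ, hδv, hδu⟩ := exists_d (F := F) D.halt D.hnd D.hl hu hu' hκ0
    have hκ1 : κ * κ - 1 ≠ 0 := by
      intro h0
      have h1 : (κ - 1) * (κ + 1) = 0 := by linear_combination h0
      rcases mul_eq_zero.1 h1 with h3 | h3
      · exact hκ 1 (by rw [map_one, sub_eq_zero.1 h3])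
      · exact hκ (-1) (by rw [map_neg, map_one, eq_neg_of_add_eq_zero_left h3])
    have hvu : φ v u = 0 := by rw [skew_of D.halt, hu, neg_zero]
    have hδA := D.mem_of_PK hδ
    have hδM : toEq.symm δ ∈ M := by
      refine mem_inf.2 ⟨hδA, (D.mem_M_iff hdim hv hδA).2 (Or.inl ?_)⟩
      rw [MulEquiv.apply_symm_apply, hδv]
    have hδσ : Sl K (toEq.symm δ) (AlgEquiv.refl : K ≃ₐ[F] K) := by
      intro κ x
      rw [MulEquiv.apply_symm_apply]
      exact hδ.1 κ x
    have hd := Subgroup.commutator_mem_commutator hδM (tv_mem_M D hdim hv hvu (κ * κ - 1)⁻¹)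
    have e1 : toEq ⁅toEq.symm δ, toEq.symm (tvE F D.halt u (κ * κ - 1)⁻¹)⁆ = tvE F D.halt u 1 := by
      rw [comm_tv D hδA hδσ, MulEquiv.apply_symm_apply, hδu, tvE_smul, tvE_mul]
      congr 1
      have e2 : (AlgEquiv.refl : K ≃ₐ[F] K) (κ * κ - 1)⁻¹ = (κ * κ - 1)⁻¹ := rfl
      rw [e2]
      have e3 : κ * κ * (κ * κ - 1)⁻¹ + -(κ * κ - 1)⁻¹ = (κ * κ - 1) * (κ * κ - 1)⁻¹ := by ring
      rw [e3, mul_inv_cancel₀ hκ1]
    set d := ⁅toEq.symm δ, toEq.symm (tvE F D.halt u (κ * κ - 1)⁻¹)⁆ with hdd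
    have h3 := hcd d hd
    rw [mem_scalars_iff] at h3
    obtain ⟨s, hs⟩ := h3
    refine ⟨s, fun x => ?_⟩
    rw [← e1, ← map_mul, ← map_inv, ← map_mul]
    have e4 : c * d * c⁻¹ = ⁅c, d⁆ * d := by rw [commutatorElement_def]; group
    rw [e4, map_mul, LinearEquiv.mul_apply, toEq_apply, hs, Matrix.smul_mulVec, Matrix.one_mulVec]
  rcases hcz with h3 | h3
  · obtain ⟨a, ha⟩ := eq_tvE (F := F) D.halt D.hnd D.hl h2K hv hcPK h3 hu
    exact ⟨a, Or.inl ha⟩
  · have hneg := D.toEq_neg c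
    have h4 : toEq (-1 * c) ∈ PK F φ := by
      refine ⟨fun κ x => ?_, fun x y => ?_⟩
      · rw [hneg, hneg, hcPK.1, smul_neg]
      · rw [hneg, hneg, φ.map_neg, LinearMap.neg_apply, (φ _).map_neg, neg_neg, hcPK.2]
    obtain ⟨a, ha⟩ := eq_tvE (F := F) D.halt D.hnd D.hl h2K hv h4 (by rw [hneg, h3, neg_neg]) (by
      intro u hu1 hu2
      obtain ⟨s, hs⟩ := hu u hu1 hu2
      refine ⟨s, fun x => ?_⟩
      rw [← hs]
      have e5 : (toEq (-1 * c))⁻¹ x = -((toEq c)⁻¹ x) := by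
        apply (toEq (-1 * c)).injective
        rw [apply_inv_apply, hneg, map_neg, apply_inv_apply, neg_neg]
      rw [LinearEquiv.mul_apply, LinearEquiv.mul_apply, LinearEquiv.mul_apply, LinearEquiv.mul_apply, e5, hneg,
        map_neg, map_neg, neg_neg])
    exact ⟨a, Or.inr ha⟩

include h

/-- some element of `M̂0` is not `K`-linear -/
theorem kill_semi [Finite K] (hdim : 3 ≤ finrank F K) (h2 : (2 : F) ≠ 0) {v : ι → F} (hv : v ≠ 0) {τ : GL ι F}
    (hτ : τ ∈ m.hat A) (hτv : toEq τ v = v ∨ toEq τ v = -v) {σ : K ≃ₐ[F] K} (hσ : Sl K τ σ)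
    (hσ1 : ∃ κ, σ κ ≠ κ) : False := by
  obtain ⟨Y, hY, hkill⟩ := kill_cent h m (D.z_mem v) (D.z_notMem hv)
  have hvv : φ v v = 0 := D.halt v
  -- the transvections at `v`
  have hX : ∀ a : K, toEq.symm (tvE F D.halt v a) ∈ Y := by
    intro a
    rw [hY]
    refine ⟨tv_mem_M D hdim hv hvv a, fun d hd => ?_⟩
    obtain ⟨h1, h3⟩ := comm_le D hdim hv hd
    have h4 : toEq d * tvE F D.halt v a * (toEq d)⁻¹ = tvE F D.halt v a := by
      have := tvE_conj D.halt (σ := (AlgEquiv.refl : K ≃ₐ[F] K)) h1.1 h1.2 v a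
      rw [h3] at this
      exact this
    have h5 : ⁅toEq.symm (tvE F D.halt v a), d⁆ = 1 := by
      apply toEq.injective
      rw [map_one, commutatorElement_def, map_mul, map_mul, map_mul, map_inv, map_inv, MulEquiv.apply_symm_apply]
      have h6 : tvE F D.halt v a * toEq d * (tvE F D.halt v a)⁻¹ * (toEq d)⁻¹ =
          tvE F D.halt v a * (toEq d * tvE F D.halt v a * (toEq d)⁻¹)⁻¹ := by group
      rw [h6, h4, mul_inv_cancel]
    rw [h5]
    exact (scalars ι F).one_mem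
  have hneg1 : (-1 : GL ι F) ∈ Y := by
    have h1 := hX 0
    rw [hY] at h1 ⊢
    have e1 : toEq.symm (tvE F D.halt v 0) = (1 : GL ι F) := by rw [tvE_zero, map_one]
    rw [e1] at h1
    have h3 : (-1 : GL ι F) ∈ m.hat A := by
      have := D.neg_mem (mem_inf.1 h1.1).1
      rwa [mul_one] at this
    have h4 : toEq (-1 : GL ι F) v = -v := by
      have := D.toEq_neg 1 v
      rwa [mul_one, map_one, LinearEquiv.coe_one, id_eq] at this
    refine ⟨mem_inf.2 ⟨h3, (D.mem_M_iff hdim hv h3).2 (Or.inr h4)⟩, fun d _ => ?_⟩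
    have h5 : ⁅(-1 : GL ι F), d⁆ = 1 := by
      rw [commutatorElement_eq_one_iff_mul_comm, neg_one_mul, mul_neg_one]
    rw [h5]
    exact (scalars ι F).one_mem
  obtain ⟨κ₀, hκ₀⟩ := D.exists_K
  have h0 : κ₀ ≠ 0 := by
    rintro rfl
    exact hκ₀ 0 (map_zero _)
  obtain ⟨γ, hγ, hγv⟩ := exists_h (F := F) D.halt D.hnd D.hl hv h0
  have hgA := D.mem_of_PK hγ
  -- `Y` is not scalar
  have hYn : ¬ Y ≤ scalars ι F := by
    intro hle
    have h1 := hle (hX 1)
    rw [mem_scalars_iff] at h1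
    obtain ⟨s, hs⟩ := h1
    have e4 : ∀ x, tvE F D.halt v 1 x = (s : F) • x := by
      intro x
      rw [← MulEquiv.apply_symm_apply toEq (tvE F D.halt v 1), toEq_apply, hs, Matrix.smul_mulVec, Matrix.one_mulVec]
    have e5 : (s : F) = 1 := by
      have e6 := e4 v
      rw [tvE_apply, hvv, mul_zero, zero_smul, add_zero] at e6
      have e7 : ((s : F) - 1) • v = 0 := by rw [sub_smul, ← e6, one_smul, sub_self]
      exact sub_eq_zero.1 ((smul_eq_zero.1 e7).resolve_right hv)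
    have e6 : tvE F D.halt v 1 = 1 := by
      ext x
      rw [e4, e5, one_smul]
      rfl
    exact one_ne_zero (tv_inj D hv e6)
  have h1 : toEq.symm γ ∈ cj (toEq.symm (fT (Algebra.trace F K) D.halt v)) (m.hat A) := by
    refine hkill hYn _ hgA fun c hc => ?_
    obtain ⟨hcM, hcd⟩ := (hY c).1 hc
    obtain ⟨a, ha⟩ := eq_pm D hdim h2 hv hτ hτv hσ hσ1 hcM hcd
    have key : ∀ c : GL ι F, toEq c = tvE F D.halt v a → toEq.symm γ * c * (toEq.symm γ)⁻¹ ∈ Y := by
      intro c hc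
      have e1 : toEq.symm γ * c * (toEq.symm γ)⁻¹ = toEq.symm (tvE F D.halt v (κ₀ * κ₀ * a)) := by
        apply toEq.injective
        rw [map_mul, map_mul, map_inv, MulEquiv.apply_symm_apply, MulEquiv.apply_symm_apply, hc]
        have := tvE_conj D.halt (σ := (AlgEquiv.refl : K ≃ₐ[F] K)) hγ.1 hγ.2 v a
        rw [hγv, tvE_smul] at this
        exact this
      rw [e1]
      exact hX _
    rcases ha with ha | ha
    · exact key c ha
    · have h3 := key _ ha
      have e1 : toEq.symm γ * c * (toEq.symm γ)⁻¹ = (-1) * (toEq.symm γ * (-1 * c) * (toEq.symm γ)⁻¹) := by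
        rw [neg_one_mul, neg_one_mul, mul_neg, neg_mul, neg_neg]
      rw [e1]
      exact Y.mul_mem hneg1 h3
  rw [D.mem_M_iff hdim hv hgA, MulEquiv.apply_symm_apply, hγv] at h1
  rcases h1 with h1 | h1
  · have : (κ₀ - 1) • v = 0 := by rw [sub_smul, h1, one_smul, sub_self]
    exact hκ₀ 1 (by rw [map_one, sub_eq_zero.1 ((smul_eq_zero.1 this).resolve_right hv)])
  · have : (κ₀ + 1) • v = 0 := by rw [add_smul, h1, one_smul, neg_add_cancel]
    exact hκ₀ (-1) (by
      rw [map_neg, map_one, eq_neg_of_add_eq_zero_left ((smul_eq_zero.1 this).resolve_right hv)])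

/-- **The core.** -/
theorem kill_all [Fintype F] (hF : 3 ≤ Fintype.card F) : False := by
  have hfd : FiniteDimensional F K := FiniteDimensional.of_finrank_pos D.hr.pos
  have hKfin : Finite K := Module.finite_of_finite F
  by_cases h4 : ∃ c : F, c ≠ 0 ∧ c * c ≠ 1
  · obtain ⟨c, hc, hc1⟩ := h4
    exact D.kill_four h hc hc1
  push Not at h4
  -- `|F| = 3`
  have h3 : Fintype.card F = 3 := by
    classical
    have h5 : (Finset.univ : Finset F) ⊆ {0, 1, -1} := by
      intro c _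
      by_cases hc : c = 0
      · simp [hc]
      · have h6 : (c - 1) * (c + 1) = 0 := by linear_combination h4 c hc
        rcases mul_eq_zero.1 h6 with h7 | h7
        · simp [sub_eq_zero.1 h7]
        · simp [eq_neg_of_add_eq_zero_left h7]
    have h6 := Finset.card_le_card h5
    have h7 : ({0, 1, -1} : Finset F).card ≤ 3 := Finset.card_le_three
    rw [Finset.card_univ] at h6
    omega
  rcases (Nat.lt_or_ge 2 (finrank F K)) with h5 | h5
  · have h2 : (2 : F) ≠ 0 := by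
      intro h0
      have hthree : (3 : F) = 0 := by
        have := Nat.cast_card_eq_zero F
        rw [h3] at this
        exact_mod_cast this
      have hone : (1 : F) ≠ 0 := one_ne_zero
      apply hone
      linear_combination hthree - h0
    obtain ⟨v, hv⟩ := D.hne
    by_cases hlin : ∀ g ∈ m.hat A, (toEq g v = v ∨ toEq g v = -v) → ∀ (κ : K) x, toEq g (κ • x) = κ • toEq g x
    · exact D.kill_lin h h5 hv hlin
    · push Not at hlin
      obtain ⟨τ, hτ, hτv, κ, x, hκx⟩ := hlin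
      obtain ⟨-, σ, hσ⟩ := (D.hA τ).1 hτ
      refine kill_semi h D h5 h2 hv hτ hτv hσ ⟨κ, fun h6 => hκx ?_⟩
      rw [hσ, h6]
  · exact D.kill_two h h3 (le_antisymm h5 D.hr.two_le)

end Semi

/-! ### the row -/

section Row

/-- the automorphism of `K` -/
theorem exists_sig {F K V : Type*} [Field F] [Field K] [Algebra F K] [AddCommGroup V]
    [Module F V] [Module K V] [IsScalarTower F K V] [FiniteDimensional F K] {v : V} (hv : v ≠ 0) {g : V ≃ₗ[F] V}
    (hg : ∀ κ : K, ∃ κ' : K, ∀ x, g (κ • x) = κ' • g x) : ∃ σ : K ≃ₐ[F] K, ∀ (κ : K) x, g (κ • x) = σ κ • g x := by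
  choose s hs using hg
  have heq : ∀ a b : K, (∀ x, a • g x = b • g x) → a = b := by
    intro a b hab
    have h1 := hab (g⁻¹ v)
    rw [apply_inv_apply] at h1
    have h2 : (a - b) • v = 0 := by rw [sub_smul, h1, sub_self]
    exact sub_eq_zero.1 ((smul_eq_zero.1 h2).resolve_right hv)
  let f : K →ₐ[F] K :=
    { toFun := s
      map_one' := by
        apply heq
        intro x
        rw [← hs, one_smul, one_smul]
      map_mul' := fun a b => by
        apply heq
        intro x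
        rw [← hs, mul_smul, hs, hs, smul_smul]
      map_zero' := by
        apply heq
        intro x
        rw [← hs, zero_smul, zero_smul, map_zero]
      map_add' := fun a b => by
        apply heq
        intro x
        rw [← hs, add_smul, map_add, hs, hs, add_smul]
      commutes' := fun c => by
        apply heq
        intro x
        rw [← hs, algebraMap_smul, algebraMap_smul, map_smul] }
  have hinj : Function.Injective f := f.toRingHom.injective
  have hsurj : Function.Surjective f := LinearMap.surjective_of_injective (f := f.toLinearMap) hinj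
  exact ⟨AlgEquiv.ofBijective f ⟨hinj, hsurj⟩, fun κ x => hs κ x⟩

open Matrix in
theorem core_rho {Q : Type*} [Group Q] [Finite Q] {A : Subgroup Q} {Γ : Subgroup (MulAut Q)} (h : EPT A Γ)
    {F : Type*} [Field F] [Fintype F] {k : ℕ} (m : Model Q (Cfsg.spGL k F)) (hk : 2 ≤ k) (hF : 3 ≤ Fintype.card F)
    {K : Type*} [Field K] [Algebra F K] (hr : (finrank F K).Prime)
    (ρ : K →ₐ[F] Matrix (Fin k ⊕ Fin k) (Fin k ⊕ Fin k) F)
    (hsa : ∀ κ x y, sympForm k F (ρ κ *ᵥ x) y = sympForm k F x (ρ κ *ᵥ y))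
    (halt : ∀ κ x, sympForm k F (ρ κ *ᵥ x) x = 0)
    (hA : ∀ g, g ∈ m.hat A ↔ g ∈ spGL k F ∧ ∀ κ, ∃ κ', ∀ x, (g : Matrix _ _ F) *ᵥ (ρ κ *ᵥ x) =
      ρ κ' *ᵥ ((g : Matrix _ _ F) *ᵥ x)) : False := by
  letI instM : Module K (Fin k ⊕ Fin k → F) := modOf ρ
  have hsmul : ∀ (κ : K) (v : Fin k ⊕ Fin k → F), κ • v = ρ κ *ᵥ v := fun _ _ => rfl
  haveI instT : IsScalarTower F K (Fin k ⊕ Fin k → F) := by
    refine ⟨fun c k v => ?_⟩
    rw [hsmul, hsmul, map_smul, smul_mulVec]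
  have hfd : FiniteDimensional F K := FiniteDimensional.of_finrank_pos hr.pos
  have hKfin : Finite K := Module.finite_of_finite F
  have hℓ : Algebra.trace F K ≠ 0 := Algebra.trace_ne_zero F K
  obtain ⟨φ, hφ, hφa⟩ := exists_phi (V := Fin k ⊕ Fin k → F) hℓ (sympForm k F)
    Cfsg.Agent.ClassicalGeometry.SympBasic.sympForm_add_left Cfsg.Agent.ClassicalGeometry.SympBasic.sympForm_add_right
    Cfsg.Agent.ClassicalGeometry.SympBasic.sympForm_smul_left
    (fun k x y => by rw [hsmul, hsmul, hsa]) (fun k x => by rw [hsmul, halt])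
  have hnd : ∀ x : Fin k ⊕ Fin k → F, x ≠ 0 → ∃ y, φ x y ≠ 0 := by
    intro x hx
    by_contra hcon
    push Not at hcon
    apply hx
    apply Cfsg.Agent.ClassicalGeometry.SympBasic.eq_zero_of_forall_sympForm_right
    intro w
    rw [← hφ, hcon, map_zero]
  obtain ⟨v, hv⟩ : ∃ v : Fin k ⊕ Fin k → F, v ≠ 0 :=
    ⟨Pi.single (Sum.inl ⟨0, by omega⟩) 1, fun h0 => by simpa using congrFun h0 (Sum.inl ⟨0, by omega⟩)⟩
  have hSS : ∀ g : GL (Fin k ⊕ Fin k) F, g ∈ spGL k F ↔
      ∀ x y, Algebra.trace F K (φ (toEq g x) (toEq g y)) = Algebra.trace F K (φ x y) := by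
    intro g
    constructor
    · intro hg x y
      rw [hφ, hφ]
      exact hg x y
    · intro hg x y
      have := hg x y
      rw [hφ, hφ] at this
      exact this
  have D : Dat m A φ (Algebra.trace F K) := by
    refine ⟨hφa, hnd, hℓ, hr, hSS, fun g => ?_, v, hv⟩
    rw [hA]
    constructor
    · rintro ⟨h1, h2⟩
      exact ⟨h1, exists_sig hv (g := toEq g) h2⟩
    · rintro ⟨h1, σ, hσ⟩
      exact ⟨h1, fun κ => ⟨σ κ, hσ κ⟩⟩
  exact kill_all h D hF

/-- **S3499, row Sp-C3** -/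
theorem spC3 : ∀ {Q : Type} [Group Q] [Finite Q], IsSimpleGroup Q → ∀ {A : Subgroup Q}
    {Γ : Subgroup (MulAut Q)}, EPT A Γ → ∀ {F : Type} [Field F] [Fintype F] {k : ℕ}
    (m : Model Q (Cfsg.spGL k F)), 2 ≤ k → 3 ≤ Fintype.card F → ∀ (r : ℕ)
    (K : Subalgebra F (Matrix (Fin k ⊕ Fin k) (Fin k ⊕ Fin k) F)), r.Prime → IsFieldSubalgebra r K →
    IsSelfAdjointFor (Cfsg.sympForm k F) K → (∀ a ∈ K, ∀ v, Cfsg.sympForm k F (a.mulVec v) v = 0) →
    m.hat A ≤ subalgebraNormalizer K → False := by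
  intro Q _ _ _ A Γ h F _ _ k m hk hF r K hr hK hsa halt hA
  have hmax := m.isMaximalIn h.max
  have hAeq : m.hat A = subalgebraNormalizer K ⊓ spGL k F := by
    rcases hmax.2 (subalgebraNormalizer K ⊓ spGL k F) (le_inf hA hmax.1.le) inf_le_right with h1 | h1
    · exact h1.symm
    · exfalso
      exact not_spGL_le_normalizer hK hr.two_le hk (by rw [← h1]; exact inf_le_left)
  have hfr : finrank F K = r := hK.finrank_eq
  have hnt : Nontrivial K := by
    apply nontrivial_of_finrank_pos (R := F)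
    rw [hfr]
    exact hr.pos
  have hfield : IsField K :=
    { exists_pair_ne := exists_pair_ne K
      mul_comm := fun x y => Subtype.ext (hK.comm x x.2 y y.2)
      mul_inv_cancel := fun {a} ha => by
        obtain ⟨y, hy, hay⟩ := hK.inv a a.2 (fun h => ha (Subtype.ext h))
        exact ⟨⟨y, hy⟩, Subtype.ext hay⟩ }
  refine @core_rho Q _ _ A Γ h F _ _ k m hk hF K hfield.toField K.algebra (by rw [hfr]; exact hr)
    K.val (fun k x y => hsa k k.2 x y) (fun k x => halt k k.2 x) ?_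
  intro g
  rw [hAeq, mem_inf, and_comm]
  refine and_congr_right fun hg => ?_
  constructor
  · intro hgN κ
    obtain ⟨k', hk', h1⟩ := semilinear_of_mem hgN κ.2
    exact ⟨⟨k', hk'⟩, h1⟩
  · intro hgN
    apply mem_subalgebraNormalizer_of_semilinear
    intro κ hκ
    obtain ⟨κ', h1⟩ := hgN ⟨κ, hκ⟩
    exact ⟨κ', κ'.2, h1⟩

end Row

end Cfsg.Agent.H821.EP
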